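import Cfsg.Agent.Lib.AutPSL.FormClass

/-!
# Gram matrices of the standard forms and centralisers of graph automorphisms.
-/

set_option autoImplicit false

namespace Cfsg.Agent.Lib.AutPSL

open Matrix
open scoped MatrixGroups
open Cfsg.Agent.Lib.QuadGram

variable {F : Type*} [Field F] {n : ℕ}

section general

variable {ι : Type} [Fintype ι] [DecidableEq ι]

lemma form_entry (R : Matrix ι ι F) (i j : ι) :
    (Pi.single i 1 : ι → F) ⬝ᵥ (R *ᵥ (Pi.single j 1 : ι → F)) = R i j := by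
  rw [single_one_dotProduct, Matrix.mulVec_single_one]
  rfl

lemma form_transpose (u R : Matrix ι ι F) (x y : ι → F) :
    (u *ᵥ x) ⬝ᵥ (R *ᵥ (u *ᵥ y)) = x ⬝ᵥ ((uᵀ * R * u) *ᵥ y) := by
  have h1 : u *ᵥ x = x ᵥ* uᵀ := (Matrix.vecMul_transpose _ _).symm
  rw [h1, ← Matrix.dotProduct_mulVec, Matrix.mulVec_mulVec, Matrix.mulVec_mulVec, Matrix.mul_assoc]

/-- A symmetric matrix with vanishing quadratic form is zero, if `2 ≠ 0`. -/
lemma sym_eq_zero (h2 : (2 : F) ≠ 0) (R : Matrix ι ι F) (hR : Rᵀ = R) (h : ∀ v : ι → F, v ⬝ᵥ (R *ᵥ v) = 0) : R = 0 := by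
  ext i j
  have h1 := h (Pi.single i 1 + Pi.single j 1)
  rw [Matrix.mulVec_add, dotProduct_add, add_dotProduct, add_dotProduct, form_entry, form_entry, form_entry, form_entry] at h1
  have h3 := h (Pi.single i 1)
  have h4 := h (Pi.single j 1)
  rw [form_entry] at h3 h4
  have h5 : R j i = R i j := by
    conv_rhs => rw [← hR]
    rfl
  rw [h3, h4, h5] at h1
  have h6 : 2 * R i j = 0 := by linear_combination h1
  simpa using (mul_eq_zero.mp h6).resolve_left h2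

/-- Similarities of a quadratic form, in odd characteristic. -/
lemma mem_quadSim_iff (h2 : (2 : F) ≠ 0) (Q : (ι → F) → F) (A : Matrix ι ι F) (hA : Aᵀ = A)
    (hQ : ∀ v, 2 * Q v = v ⬝ᵥ (A *ᵥ v)) (u : GL ι F) :
    u ∈ Cfsg.Geo.quadSimilarityGroup (F := F) Q ↔
      ∃ c : Fˣ, (u : Matrix ι ι F)ᵀ * A * (u : Matrix ι ι F) = (c : F) • A := by
  change (∃ c : Fˣ, ∀ v, Q ((u : Matrix ι ι F) *ᵥ v) = (c : F) * Q v) ↔ _
  refine exists_congr fun c => ?_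
  constructor
  · intro h
    have h3 := sym_eq_zero h2 ((u : Matrix ι ι F)ᵀ * A * (u : Matrix ι ι F) - (c : F) • A) (by
      rw [Matrix.transpose_sub, Matrix.transpose_smul, Matrix.transpose_mul, Matrix.transpose_mul,
        Matrix.transpose_transpose, hA, Matrix.mul_assoc]) (by
      intro v
      rw [Matrix.sub_mulVec, dotProduct_sub, ← form_transpose, ← hQ, h, Matrix.smul_mulVec, dotProduct_smul, ← hQ,
        smul_eq_mul]
      ring)
    exact sub_eq_zero.mp h3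
  · intro h v
    apply mul_left_cancel₀ h2
    rw [hQ, form_transpose, h, Matrix.smul_mulVec, dotProduct_smul, smul_eq_mul, ← hQ]
    ring

/-- Similarities of a bilinear form. -/
lemma mem_simForm_iff (A : Matrix ι ι F) (u : GL ι F) :
    u ∈ Cfsg.Geo.similarityGroup (F := F) (fun x y : ι → F => x ⬝ᵥ (A *ᵥ y)) ↔
      ∃ c : Fˣ, (u : Matrix ι ι F)ᵀ * A * (u : Matrix ι ι F) = (c : F) • A := by
  change (∃ c : Fˣ, ∀ x y : ι → F, ((u : Matrix ι ι F) *ᵥ x) ⬝ᵥ (A *ᵥ ((u : Matrix ι ι F) *ᵥ y)) = (c : F) * (x ⬝ᵥ (A *ᵥ y))) ↔ _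
  refine exists_congr fun c => ?_
  constructor
  · intro h
    ext i j
    have h1 := h (Pi.single i 1) (Pi.single j 1)
    rw [form_transpose, form_entry, form_entry] at h1
    rw [h1]
    rfl
  · intro h x y
    rw [form_transpose, h, Matrix.smul_mulVec, dotProduct_smul, smul_eq_mul]

/-- The reindexed inverse of a `c`-symmetric matrix is `c`-symmetric. -/
lemma rG_inv_sym (e : ι ≃ Fin n) (A : GL ι F) (c : Fˣ) (hA : (A : Matrix ι ι F)ᵀ = (c : F) • (A : Matrix ι ι F)) :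
    ((rG e A⁻¹ : GL (Fin n) F) : Matrix (Fin n) (Fin n) F) = (c : F) • ((rG e A⁻¹ : GL (Fin n) F) : Matrix (Fin n) (Fin n) F)ᵀ := by
  set B := (((A⁻¹ : GL ι F)) : Matrix ι ι F) with hB
  set A' := (A : Matrix ι ι F) with hA'
  have hAB : A' * B = 1 := gl_mi A
  have hBA : B * A' = 1 := gl_im A
  have h1 : Bᵀ * A'ᵀ = 1 := by rw [← Matrix.transpose_mul, hAB, Matrix.transpose_one]
  rw [hA, Matrix.mul_smul] at h1
  have h2 : B = (c : F) • Bᵀ := by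
    calc B = ((c : F) • (Bᵀ * A')) * B := by rw [h1, Matrix.one_mul]
      _ = (c : F) • Bᵀ := by rw [Matrix.smul_mul, Matrix.mul_assoc, hAB, Matrix.mul_one]
  rw [rG_coe, Matrix.transpose_submatrix]
  conv_lhs => rw [← hB, h2]
  rfl

lemma det_rG (e : ι ≃ Fin n) (A : GL ι F) :
    ((rG e A : GL (Fin n) F) : Matrix (Fin n) (Fin n) F).det = (A : Matrix ι ι F).det := by
  rw [rG_coe, Matrix.det_submatrix_equiv_self]

lemma det_inv_gl (A : GL ι F) :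
    ((A⁻¹ : GL ι F) : Matrix ι ι F).det = ((A : Matrix ι ι F).det)⁻¹ := by
  have h1 : ((A⁻¹ : GL ι F) : Matrix ι ι F).det * (A : Matrix ι ι F).det = 1 := by
    rw [← Matrix.det_mul, gl_im, Matrix.det_one]
  exact eq_inv_of_mul_eq_one_left h1

lemma gl_det_ne (A : GL ι F) : (A : Matrix ι ι F).det ≠ 0 :=
  ((Matrix.isUnit_iff_isUnit_det _).mp A.isUnit).ne_zero

/-- The form of `rG e A⁻¹` on a vector. -/
lemma form_rG_inv (e : ι ≃ Fin n) (A : GL ι F) (x : Fin n → F) :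
    x ⬝ᵥ (((rG e A⁻¹ : GL (Fin n) F) : Matrix (Fin n) (Fin n) F) *ᵥ x) =
      (((A⁻¹ : GL ι F) : Matrix ι ι F) *ᵥ (x ∘ e)) ⬝ᵥ ((A : Matrix ι ι F)ᵀ *ᵥ (((A⁻¹ : GL ι F) : Matrix ι ι F) *ᵥ (x ∘ e))) := by
  have h1 : x ⬝ᵥ (((rG e A⁻¹ : GL (Fin n) F) : Matrix (Fin n) (Fin n) F) *ᵥ x) = (x ∘ e) ⬝ᵥ (((A⁻¹ : GL ι F) : Matrix ι ι F) *ᵥ (x ∘ e)) := by
    rw [rG_coe]
    have h2 : (((A⁻¹ : GL ι F) : Matrix ι ι F).submatrix e.symm e.symm *ᵥ x) = (((A⁻¹ : GL ι F) : Matrix ι ι F) *ᵥ (x ∘ e)) ∘ e.symm := by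
      ext i
      simp only [Matrix.mulVec, dotProduct, Matrix.submatrix_apply, Function.comp_apply]
      exact Equiv.sum_comp e.symm (fun j => ((A⁻¹ : GL ι F) : Matrix ι ι F) (e.symm i) j * x (e j)) ▸ by simp
    rw [h2]
    simp only [dotProduct, Function.comp_apply]
    exact (Equiv.sum_comp e (fun j => x j * ((((A⁻¹ : GL ι F) : Matrix ι ι F) *ᵥ (x ∘ e)) ∘ e.symm) j)).symm.trans (by simp)
  rw [h1]
  set w := ((A⁻¹ : GL ι F) : Matrix ι ι F) *ᵥ (x ∘ e) with hw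
  have h3 : x ∘ e = (A : Matrix ι ι F) *ᵥ w := by
    rw [hw, Matrix.mulVec_mulVec, gl_mi, Matrix.one_mulVec]
  rw [Matrix.dotProduct_mulVec w, Matrix.vecMul_transpose, ← h3]

end general

section standard

variable (m k : ℕ) (F)

lemma gramHyp_symm : (gramHyp (Fin m) F)ᵀ = gramHyp (Fin m) F := by
  simp [gramHyp, Matrix.fromBlocks_transpose]

lemma gramHyp_mulVec (v : Fin m ⊕ Fin m → F) :
    gramHyp (Fin m) F *ᵥ v = Sum.elim (fun i => v (Sum.inr i)) (fun i => v (Sum.inl i)) := by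
  ext l
  rcases l with i | i <;>
  simp [gramHyp, Matrix.mulVec, dotProduct, Fintype.sum_sum_type, Matrix.one_apply]

lemma two_mul_plus (v : Fin m ⊕ Fin m → F) : 2 * Cfsg.quadFormPlus m F v = v ⬝ᵥ (gramHyp (Fin m) F *ᵥ v) := by
  rw [gramHyp_mulVec]
  simp only [Cfsg.quadFormPlus, dotProduct, Fintype.sum_sum_type, Sum.elim_inl, Sum.elim_inr]
  rw [Finset.mul_sum, ← Finset.sum_add_distrib]
  refine Finset.sum_congr rfl fun x _ => ?_
  ring

/-- The polar Gram matrix of `quadFormMinus`. -/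
def gMinus (a b : F) : Matrix ((Fin k ⊕ Fin k) ⊕ Fin 2) ((Fin k ⊕ Fin k) ⊕ Fin 2) F :=
  Matrix.fromBlocks (gramHyp (Fin k) F) 0 0 !![2, a; a, 2 * b]

lemma gMinus_symm (a b : F) : (gMinus F k a b)ᵀ = gMinus F k a b := by
  rw [gMinus, Matrix.fromBlocks_transpose, gramHyp_symm]
  have h1 : (!![2, a; a, 2 * b] : Matrix (Fin 2) (Fin 2) F)ᵀ = !![2, a; a, 2 * b] := by
    ext i j
    fin_cases i <;> fin_cases j <;> simp
  rw [h1]
  simp

lemma det_gMinus (a b : F) : (gMinus F k a b).det = (-1) ^ k * (4 * b - a ^ 2) := by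
  rw [gMinus, Matrix.det_fromBlocks_zero₂₁, det_gramHyp, Matrix.det_fin_two_of]
  ring

lemma dot_sum {κ₁ κ₂ : Type} [Fintype κ₁] [Fintype κ₂] (x y : κ₁ ⊕ κ₂ → F) :
    x ⬝ᵥ y = (x ∘ Sum.inl) ⬝ᵥ (y ∘ Sum.inl) + (x ∘ Sum.inr) ⬝ᵥ (y ∘ Sum.inr) := by
  simp [dotProduct, Fintype.sum_sum_type]

lemma two_mul_minus (a b : F) (v : (Fin k ⊕ Fin k) ⊕ Fin 2 → F) :
    2 * Cfsg.quadFormMinus k F a b v = v ⬝ᵥ (gMinus F k a b *ᵥ v) := by
  have e1 : Cfsg.quadFormMinus k F a b v = Cfsg.quadFormPlus k F (v ∘ Sum.inl) +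
      (v (Sum.inr 0) ^ 2 + a * v (Sum.inr 0) * v (Sum.inr 1) + b * v (Sum.inr 1) ^ 2) := rfl
  rw [e1, mul_add, two_mul_plus, gMinus, Matrix.fromBlocks_mulVec, Matrix.zero_mulVec, Matrix.zero_mulVec,
    add_zero, zero_add, dot_sum F v]
  simp only [Sum.elim_comp_inl, Sum.elim_comp_inr]
  congr 1
  simp [dotProduct, Fin.sum_univ_two, Matrix.mulVec, Matrix.vec2_dotProduct, Function.comp_apply]
  ring

/-- The polar Gram matrix of `quadFormOdd`. -/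
def gOdd : Matrix (Unit ⊕ (Fin m ⊕ Fin m)) (Unit ⊕ (Fin m ⊕ Fin m)) F :=
  Matrix.fromBlocks (Matrix.of fun _ _ => (2 : F)) 0 0 (gramHyp (Fin m) F)

lemma gOdd_symm : (gOdd F m)ᵀ = gOdd F m := by
  rw [gOdd, Matrix.fromBlocks_transpose, gramHyp_symm]
  have h1 : (Matrix.of fun _ _ => (2 : F) : Matrix Unit Unit F)ᵀ = Matrix.of fun _ _ => (2 : F) := by
    ext i j
    simp
  rw [h1]
  simp

lemma det_gOdd : (gOdd F m).det = 2 * (-1) ^ m := by
  rw [gOdd, Matrix.det_fromBlocks_zero₂₁, det_gramHyp, Matrix.det_unique]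
  rfl

lemma two_mul_odd (v : Unit ⊕ (Fin m ⊕ Fin m) → F) :
    2 * Cfsg.quadFormOdd m F v = v ⬝ᵥ (gOdd F m *ᵥ v) := by
  have e1 : Cfsg.quadFormOdd m F v = v (Sum.inl ()) ^ 2 + Cfsg.quadFormPlus m F (v ∘ Sum.inr) := rfl
  rw [e1, mul_add, two_mul_plus, gOdd, Matrix.fromBlocks_mulVec, Matrix.zero_mulVec, Matrix.zero_mulVec,
    add_zero, zero_add, dot_sum F v]
  simp only [Sum.elim_comp_inl, Sum.elim_comp_inr]
  congr 1
  simp [dotProduct, Matrix.mulVec, Function.comp_apply]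
  ring

/-- `quadFormPlus`'s Gram matrix in `GL`. -/
noncomputable def gPlusG : GL (Fin m ⊕ Fin m) F :=
  Matrix.GeneralLinearGroup.mkOfDetNeZero (gramHyp (Fin m) F) (by rw [det_gramHyp]; exact pow_ne_zero _ (by norm_num))

/-- `quadFormMinus`'s Gram matrix in `GL`. -/
noncomputable def gMinusG {a b : F} (hab : 4 * b - a ^ 2 ≠ 0) : GL ((Fin k ⊕ Fin k) ⊕ Fin 2) F :=
  Matrix.GeneralLinearGroup.mkOfDetNeZero (gMinus F k a b) (by
    rw [det_gMinus]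
    exact mul_ne_zero (pow_ne_zero _ (by norm_num)) hab)

/-- `quadFormOdd`'s Gram matrix in `GL`. -/
noncomputable def gOddG (h2 : (2 : F) ≠ 0) : GL (Unit ⊕ (Fin m ⊕ Fin m)) F :=
  Matrix.GeneralLinearGroup.mkOfDetNeZero (gOdd F m) (by
    rw [det_gOdd]
    exact mul_ne_zero h2 (pow_ne_zero _ (by norm_num)))

/-- The matrix `J` in `GL`. -/
noncomputable def jG : GL (Fin m ⊕ Fin m) F :=
  Matrix.GeneralLinearGroup.mkOfDetNeZero (Matrix.J (Fin m) F) (Matrix.isUnit_det_J _ _).ne_zero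

lemma jG_transpose : ((jG F m : GL (Fin m ⊕ Fin m) F) : Matrix (Fin m ⊕ Fin m) (Fin m ⊕ Fin m) F)ᵀ =
    ((-1 : Fˣ) : F) • ((jG F m : GL (Fin m ⊕ Fin m) F) : Matrix (Fin m ⊕ Fin m) (Fin m ⊕ Fin m) F) := by
  change (Matrix.J (Fin m) F)ᵀ = _ • (Matrix.J (Fin m) F)
  rw [Matrix.J_transpose]
  simp

end standard

section cent

variable {m k : ℕ}

theorem cent_plus (h2 : (2 : F) ≠ 0) (hn : 2 ≤ n) (e : Fin m ⊕ Fin m ≃ Fin n) :
    Nonempty (↥(Cfsg.inndiagPSL n F ⊓ Subgroup.centralizer {gr (rG e (gPlusG F m)⁻¹)}) ≃* Cfsg.PGO F (Cfsg.quadFormPlus m F)) :=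
  graph_cent_equiv hn e _ _ (mem_quadSim_iff h2 _ _ (gramHyp_symm F m) (two_mul_plus F m))

theorem cent_minus (h2 : (2 : F) ≠ 0) (hn : 2 ≤ n) {a b : F} (hab : 4 * b - a ^ 2 ≠ 0) (e : (Fin k ⊕ Fin k) ⊕ Fin 2 ≃ Fin n) :
    Nonempty (↥(Cfsg.inndiagPSL n F ⊓ Subgroup.centralizer {gr (rG e (gMinusG F k hab)⁻¹)}) ≃* Cfsg.PGO F (Cfsg.quadFormMinus k F a b)) :=
  graph_cent_equiv hn e _ _ (mem_quadSim_iff h2 _ _ (gMinus_symm F k a b) (two_mul_minus F k a b))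

theorem cent_odd (h2 : (2 : F) ≠ 0) (hn : 2 ≤ n) (e : Unit ⊕ (Fin m ⊕ Fin m) ≃ Fin n) :
    Nonempty (↥(Cfsg.inndiagPSL n F ⊓ Subgroup.centralizer {gr (rG e (gOddG F m h2)⁻¹)}) ≃* Cfsg.PGO F (Cfsg.quadFormOdd m F)) :=
  graph_cent_equiv hn e _ _ (mem_quadSim_iff h2 _ _ (gOdd_symm F m) (two_mul_odd F m))

theorem cent_symp (hn : 2 ≤ n) (e : Fin m ⊕ Fin m ≃ Fin n) :
    Nonempty (↥(Cfsg.inndiagPSL n F ⊓ Subgroup.centralizer {gr (rG e (jG F m)⁻¹)}) ≃* Cfsg.PGSp m F) :=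
  graph_cent_equiv hn e _ _ (mem_simForm_iff (Matrix.J (Fin m) F))

end cent

section classes

/-- Graph involutions are (skew-)symmetric. -/
lemma involution_cases (hn : 3 ≤ n) {γ : MulAut (ProjectiveSpecialLinearGroup (Fin n) F)}
    (hγ : Cfsg.IsGraphAutClassPSL γ) (h2 : orderOf γ = 2) :
    ∃ g : GL (Fin n) F, γ = gr g ∧ ((g : Matrix (Fin n) (Fin n) F)ᵀ = g ∨ (g : Matrix (Fin n) (Fin n) F)ᵀ = -(g : Matrix (Fin n) (Fin n) F)) := by
  obtain ⟨g, rfl⟩ := exists_of_graphClass hγ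
  refine ⟨g, rfl, ?_⟩
  obtain ⟨c, hc⟩ := (orderOf_gr_iff hn g).mp h2
  rcases sign_of_sym (by omega) g c hc with h | h
  · left
    rw [h, one_smul] at hc
    exact hc.symm
  · right
    rw [h, neg_smul, one_smul] at hc
    conv_rhs => rw [hc, neg_neg]

lemma skew_alt (h2 : (2 : F) ≠ 0) (g : Matrix (Fin n) (Fin n) F) (hg : gᵀ = -g) (v : Fin n → F) : v ⬝ᵥ (g *ᵥ v) = 0 := by
  have h1 : v ⬝ᵥ (g *ᵥ v) = v ⬝ᵥ (gᵀ *ᵥ v) := by
    rw [Matrix.dotProduct_mulVec v gᵀ v, Matrix.vecMul_transpose, dotProduct_comm]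
  rw [hg, Matrix.neg_mulVec, dotProduct_neg] at h1
  have h3 : 2 * (v ⬝ᵥ (g *ᵥ v)) = 0 := by linear_combination h1
  exact (mul_eq_zero.mp h3).resolve_left h2

lemma orderOf_gr_sym (hn : 3 ≤ n) (g : GL (Fin n) F) (h : (g : Matrix (Fin n) (Fin n) F)ᵀ = g) : orderOf (gr g) = 2 :=
  (orderOf_gr_iff hn g).mpr ⟨1, by rw [h]; simp⟩

lemma orderOf_gr_skew (hn : 3 ≤ n) (g : GL (Fin n) F) (h : (g : Matrix (Fin n) (Fin n) F)ᵀ = -(g : Matrix (Fin n) (Fin n) F)) : orderOf (gr g) = 2 :=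
  (orderOf_gr_iff hn g).mpr ⟨-1, by rw [h]; simp⟩

/-- The determinant class of a symmetric form in even dimension is invariant. -/
lemma isSquare_of_conj {m : ℕ} (hn : 2 ≤ n) (hm : n = 2 * m) (g h : GL (Fin n) F)
    (hc : Cfsg.IsConjUnder (Cfsg.inndiagPSL n F) (gr g) (gr h)) :
    IsSquare ((g : Matrix (Fin n) (Fin n) F).det * (h : Matrix (Fin n) (Fin n) F).det) := by
  obtain ⟨P, c, hP⟩ := (isConj_gr_iff hn g h).mp hc
  have h1 := congrArg Matrix.det hP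
  have hnm : (c : F) ^ n = ((c : F) ^ m) ^ 2 := by
    rw [hm]
    ring
  rw [Matrix.det_mul, Matrix.det_mul, Matrix.det_transpose, Matrix.det_smul, Fintype.card_fin, hnm] at h1
  have hc0 : (c : F) ≠ 0 := c.ne_zero
  refine ⟨(g : Matrix (Fin n) (Fin n) F).det * (P : Matrix (Fin n) (Fin n) F).det / (c : F) ^ m, ?_⟩
  have hcm : (c : F) ^ m ≠ 0 := pow_ne_zero _ hc0
  field_simp
  linear_combination (-(g : Matrix (Fin n) (Fin n) F).det) * h1

/-- A skew form and a symmetric form are never conjugate in odd characteristic. -/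
lemma not_conj_skew_sym (h2 : (2 : F) ≠ 0) (hn : 2 ≤ n) (g h : GL (Fin n) F)
    (hg : (g : Matrix (Fin n) (Fin n) F)ᵀ = -(g : Matrix (Fin n) (Fin n) F))
    (hh : (h : Matrix (Fin n) (Fin n) F)ᵀ = h) :
    ¬ Cfsg.IsConjUnder (Cfsg.inndiagPSL n F) (gr g) (gr h) := by
  intro hc
  obtain ⟨P, c, hP⟩ := (isConj_gr_iff hn g h).mp hc
  have h1 := congrArg Matrix.transpose hP
  rw [Matrix.transpose_mul, Matrix.transpose_mul, Matrix.transpose_transpose, hg, Matrix.transpose_smul, hh,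
    Matrix.neg_mul, Matrix.mul_neg, ← Matrix.mul_assoc, hP] at h1
  have h3 : (2 * (c : F)) • (h : Matrix (Fin n) (Fin n) F) = 0 := by
    rw [two_mul, add_smul]
    nth_rewrite 1 [← h1]
    rw [neg_add_cancel]
  rcases smul_eq_zero.mp h3 with h4 | h4
  · exact absurd (mul_eq_zero.mp h4) (by simp [h2, c.ne_zero])
  · have hne : Nonempty (Fin n) := ⟨⟨0, by omega⟩⟩
    have := gl_det_ne h
    rw [h4, Matrix.det_zero] at this
    exact this rfl

/-- Dichotomy of square classes. -/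
lemma sq_dichotomy [Fintype F] {a b d : F} (hd : d ≠ 0)
    (hab : ¬ IsSquare (a * b)) : IsSquare (a * d) ∨ IsSquare (b * d) := by
  classical
  by_contra hcon
  rw [not_or] at hcon
  obtain ⟨h3, h4⟩ := hcon
  have e1 := quadraticChar_neg_one_iff_not_isSquare.mpr h3
  have e2 := quadraticChar_neg_one_iff_not_isSquare.mpr h4
  have e3 := quadraticChar_neg_one_iff_not_isSquare.mpr hab
  have e4 : quadraticChar F (d * d) = 1 := (quadraticChar_one_iff_isSquare (mul_ne_zero hd hd)).mpr ⟨d, rfl⟩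
  have e5 : (a * d) * (b * d) = (a * b) * (d * d) := by ring
  have e6 := congrArg (quadraticChar F) e5
  rw [map_mul (quadraticChar F) (a * d) (b * d), map_mul (quadraticChar F) (a * b) (d * d), e1, e2, e3, e4] at e6
  norm_num at e6

lemma isSquare_mul_of_not [Fintype F] {x y : F} (hx : ¬ IsSquare x) (hy : ¬ IsSquare y) : IsSquare (x * y) := by
  classical
  have hx0 : x ≠ 0 := fun h => hx (h ▸ IsSquare.zero)
  have hy0 : y ≠ 0 := fun h => hy (h ▸ IsSquare.zero)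
  have e1 := quadraticChar_neg_one_iff_not_isSquare.mpr hx
  have e2 := quadraticChar_neg_one_iff_not_isSquare.mpr hy
  rw [← quadraticChar_one_iff_isSquare (mul_ne_zero hx0 hy0), map_mul, e1, e2]
  norm_num

lemma two_ne_of_odd [Fintype F] (hodd : Odd (Fintype.card F)) : (2 : F) ≠ 0 := by
  intro h
  have h1 : ringChar F ∣ 2 := by
    have := (ringChar.spec F 2).mp (by exact_mod_cast h)
    exact this
  have h3 : ringChar F = 2 := by
    rcases (Nat.dvd_prime Nat.prime_two).mp h1 with h4 | h4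
    · exact absurd h4 (CharP.ringChar_ne_one)
    · exact h4
  have h5 : Even (Fintype.card F) := Nat.even_iff.mpr ((FiniteField.even_card_iff_char_two).mp h3)
  exact (Nat.not_even_iff_odd.mpr hodd) h5

lemma exists_nonsq [Fintype F] (h2 : (2 : F) ≠ 0) : ∃ ν : F, ¬ IsSquare ν := by
  apply FiniteField.exists_nonsquare
  intro h
  apply h2
  have h3 := ringChar.Nat.cast_ringChar (R := F)
  rw [h] at h3
  exact_mod_cast h3

lemma aniso_of_nonsq {ν : F} (hν : ¬ IsSquare ν) (z₁ z₂ : F) (h : z₁ ^ 2 + 0 * z₁ * z₂ + (-ν) * z₂ ^ 2 = 0) :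
    z₁ = 0 ∧ z₂ = 0 := by
  have h1 : z₁ ^ 2 = ν * z₂ ^ 2 := by linear_combination h
  by_cases hz : z₂ = 0
  · subst hz
    refine ⟨?_, rfl⟩
    have : z₁ ^ 2 = 0 := by rw [h1]; ring
    exact pow_eq_zero_iff (by norm_num) |>.mp this
  · exfalso
    apply hν
    refine ⟨z₁ / z₂, ?_⟩
    field_simp
    linear_combination -h1

lemma hab_of_nonsq (h2 : (2 : F) ≠ 0) {ν : F} (hν : ¬ IsSquare ν) : 4 * (-ν) - (0 : F) ^ 2 ≠ 0 := by
  have hν0 : ν ≠ 0 := fun h => hν (h ▸ IsSquare.zero)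
  have h4 : (4 : F) ≠ 0 := by
    have : (4 : F) = 2 * 2 := by norm_num
    rw [this]
    exact mul_ne_zero h2 h2
  have : 4 * (-ν) - (0 : F) ^ 2 = -(4 * ν) := by ring
  rw [this]
  exact neg_ne_zero.mpr (mul_ne_zero h4 hν0)

lemma rG_inv_symm {ι : Type} [Fintype ι] [DecidableEq ι] (e : ι ≃ Fin n) (A : GL ι F)
    (hA : (A : Matrix ι ι F)ᵀ = (A : Matrix ι ι F)) :
    ((rG e A⁻¹ : GL (Fin n) F) : Matrix (Fin n) (Fin n) F)ᵀ = ((rG e A⁻¹ : GL (Fin n) F) : Matrix (Fin n) (Fin n) F) := by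
  have h1 := rG_inv_sym e A 1 (by rw [hA]; simp)
  rw [Units.val_one, one_smul] at h1
  exact h1.symm

lemma rG_inv_skew {ι : Type} [Fintype ι] [DecidableEq ι] (e : ι ≃ Fin n) (A : GL ι F)
    (hA : (A : Matrix ι ι F)ᵀ = -(A : Matrix ι ι F)) :
    ((rG e A⁻¹ : GL (Fin n) F) : Matrix (Fin n) (Fin n) F)ᵀ = -((rG e A⁻¹ : GL (Fin n) F) : Matrix (Fin n) (Fin n) F) := by
  have h1 := rG_inv_sym e A (-1) (by rw [hA]; simp)
  rw [Units.val_neg, Units.val_one, neg_smul, one_smul] at h1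
  conv_rhs => rw [h1, neg_neg]

lemma conj_sym_of_square [Fintype F] (h2 : (2 : F) ≠ 0) (hn : 2 ≤ n) (g h : GL (Fin n) F)
    (hg : (g : Matrix (Fin n) (Fin n) F)ᵀ = g) (hh : (h : Matrix (Fin n) (Fin n) F)ᵀ = h)
    (hsq : IsSquare ((g : Matrix (Fin n) (Fin n) F).det * (h : Matrix (Fin n) (Fin n) F).det)) :
    Cfsg.IsConjUnder (Cfsg.inndiagPSL n F) (gr g) (gr h) := by
  obtain ⟨P, hP⟩ := exists_congr_sym h2 _ _ hg hh (gl_det_ne g) (gl_det_ne h) hsq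
  exact (isConj_gr_iff hn g h).mpr ⟨P, 1, by rw [hP]; simp⟩

lemma det_rG_inv {ι : Type} [Fintype ι] [DecidableEq ι] (e : ι ≃ Fin n) (A : GL ι F) :
    ((rG e A⁻¹ : GL (Fin n) F) : Matrix (Fin n) (Fin n) F).det = ((A : Matrix ι ι F).det)⁻¹ := by
  rw [det_rG, det_inv_gl]

lemma gr_one_det : ((1 : GL (Fin n) F) : Matrix (Fin n) (Fin n) F).det = 1 := by
  rw [Units.val_one, Matrix.det_one]

end classes

end Cfsg.Agent.Lib.AutPSL
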