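import Cfsg.Agent.Lib.AutPSL.GraphCount
import Cfsg.Agent.Lib.SpOrder
import Cfsg.Agent.Lib.OrthoOrder
import Cfsg.Agent.Lib.OrthoDihedral

/-!
# Orders of projective conformal groups, and `PGSp` versus `PGO`.
-/

set_option autoImplicit false

namespace Cfsg.Agent.Lib.AutPSL

open Matrix
open scoped MatrixGroups
open Cfsg.Agent.Lib.QuadGram

variable {F : Type*} [Field F] {n m : ℕ}

/-- The order of `H` modulo scalars when all multipliers occur. -/
theorem card_projQuot_sim {ι : Type} [Fintype ι] [DecidableEq ι] [Nonempty ι] [Fintype F] (A : GL ι F) (H : Subgroup (GL ι F))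
    (hH : ∀ u : GL ι F, u ∈ H ↔ ∃ c : Fˣ, (u : Matrix ι ι F)ᵀ * (A : Matrix ι ι F) * (u : Matrix ι ι F) = (c : F) • (A : Matrix ι ι F))
    {K : Type*} [Group K] (φ : K →* GL ι F) (hinj : Function.Injective φ)
    (hφ : ∀ u : GL ι F, u ∈ φ.range ↔ (u : Matrix ι ι F)ᵀ * (A : Matrix ι ι F) * (u : Matrix ι ι F) = (A : Matrix ι ι F))
    (hsurj : ∀ c : Fˣ, ∃ u : GL ι F, (u : Matrix ι ι F)ᵀ * (A : Matrix ι ι F) * (u : Matrix ι ι F) = (c : F) • (A : Matrix ι ι F)) :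
    Nat.card (Cfsg.projQuot H) = Nat.card K := by
  classical
  have hA0 := ne_zero_gl A
  have huniq : ∀ c c' : Fˣ, (c : F) • (A : Matrix ι ι F) = (c' : F) • (A : Matrix ι ι F) → c = c' := by
    intro c c' h
    apply Units.ext
    have h3 : ((c : F) - c') • (A : Matrix ι ι F) = 0 := by
      rw [sub_smul, h, sub_self]
    rcases smul_eq_zero.mp h3 with h4 | h4
    · exact sub_eq_zero.mp h4
    · exact absurd h4 hA0
  have hc : ∀ u : ↥H, ∃ c : Fˣ, ((u : GL ι F) : Matrix ι ι F)ᵀ * (A : Matrix ι ι F) * ((u : GL ι F) : Matrix ι ι F) = (c : F) • (A : Matrix ι ι F) :=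
    fun u => (hH u.1).mp u.2
  choose mu hmu using hc
  have hmul : ∀ u v : ↥H, mu (u * v) = mu u * mu v := by
    intro u v
    apply huniq
    rw [← hmu (u * v), Units.val_mul, mul_smul, ← hmu v]
    have e1 : (((u * v : ↥H) : GL ι F) : Matrix ι ι F) = ((u : GL ι F) : Matrix ι ι F) * ((v : GL ι F) : Matrix ι ι F) := rfl
    rw [e1, Matrix.transpose_mul]
    calc ((v : GL ι F) : Matrix ι ι F)ᵀ * ((u : GL ι F) : Matrix ι ι F)ᵀ * (A : Matrix ι ι F) * (((u : GL ι F) : Matrix ι ι F) * ((v : GL ι F) : Matrix ι ι F))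
        = ((v : GL ι F) : Matrix ι ι F)ᵀ * (((u : GL ι F) : Matrix ι ι F)ᵀ * (A : Matrix ι ι F) * ((u : GL ι F) : Matrix ι ι F)) * ((v : GL ι F) : Matrix ι ι F) := by
          simp only [Matrix.mul_assoc]
      _ = _ := by rw [hmu u, Matrix.mul_smul, Matrix.smul_mul]
  let M : ↥H →* Fˣ := MonoidHom.mk' mu hmul
  have hMa : ∀ u, M u = mu u := fun _ => rfl
  have hMsurj : Function.Surjective M := by
    intro c
    obtain ⟨u, hu⟩ := hsurj c
    refine ⟨⟨u, (hH u).mpr ⟨c, hu⟩⟩, ?_⟩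
    rw [hMa]
    apply huniq
    rw [← hmu, hu]
  have hker : Nat.card M.ker = Nat.card K := by
    have hmem : ∀ k, φ k ∈ H := fun k => (hH _).mpr ⟨1, by
      rw [(hφ _).mp ⟨k, rfl⟩, Units.val_one, one_smul]⟩
    have hmem2 : ∀ k, (⟨φ k, hmem k⟩ : ↥H) ∈ M.ker := by
      intro k
      rw [MonoidHom.mem_ker, hMa]
      apply huniq
      rw [← hmu, Units.val_one, one_smul]
      exact (hφ _).mp ⟨k, rfl⟩
    let f : K → M.ker := fun k => ⟨⟨φ k, hmem k⟩, hmem2 k⟩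
    have hf : Function.Bijective f := by
      constructor
      · intro a b h
        apply hinj
        have := congrArg (fun x : M.ker => ((x : ↥H) : GL ι F)) h
        exact this
      · rintro ⟨⟨u, hu⟩, hu2⟩
        rw [MonoidHom.mem_ker, hMa] at hu2
        have h3 := hmu ⟨u, hu⟩
        rw [hu2, Units.val_one, one_smul] at h3
        obtain ⟨k, hk⟩ := (hφ u).mpr h3
        refine ⟨k, ?_⟩
        apply Subtype.ext
        apply Subtype.ext
        exact hk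
    exact (Nat.card_congr (Equiv.ofBijective f hf)).symm
  have h1 : Nat.card ↥H = Nat.card Fˣ * Nat.card K := by
    have h3 := Subgroup.card_eq_card_quotient_mul_card_subgroup M.ker
    rw [hker, Nat.card_congr (QuotientGroup.quotientKerEquivOfSurjective M hMsurj).toEquiv] at h3
    exact h3
  have hZ : Nat.card ((Cfsg.Geo.scalars ι F).subgroupOf H) = Nat.card Fˣ := by
    have hmem : ∀ c : Fˣ, (scG c : GL ι F) ∈ H := by
      intro c
      rw [hH]
      refine ⟨c * c, ?_⟩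
      rw [scG_coe, Matrix.transpose_smul, Matrix.transpose_one, Matrix.smul_mul, Matrix.smul_mul, Matrix.one_mul,
        Matrix.mul_smul, Matrix.mul_one, smul_smul, Units.val_mul]
    have hmem2 : ∀ c : Fˣ, (⟨scG c, hmem c⟩ : ↥H) ∈ (Cfsg.Geo.scalars ι F).subgroupOf H := by
      intro c
      rw [Subgroup.mem_subgroupOf, Cfsg.Geo.mem_scalars_iff]
      exact ⟨c, rfl⟩
    let f : Fˣ → (Cfsg.Geo.scalars ι F).subgroupOf H := fun c => ⟨⟨scG c, hmem c⟩, hmem2 c⟩
    have hf : Function.Bijective f := by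
      constructor
      · intro a b h
        have h3 := congrArg (fun x : (Cfsg.Geo.scalars ι F).subgroupOf H => (((x : ↥H) : GL ι F) : Matrix ι ι F)) h
        simp only [f, scG_coe] at h3
        obtain ⟨i⟩ := ‹Nonempty ι›
        have h4 := congrFun (congrFun h3 i) i
        simp at h4
        exact Units.ext h4
      · rintro ⟨⟨u, hu⟩, hu2⟩
        rw [Subgroup.mem_subgroupOf, Cfsg.Geo.mem_scalars_iff] at hu2
        obtain ⟨c, hc⟩ := hu2
        refine ⟨c, ?_⟩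
        apply Subtype.ext
        apply Subtype.ext
        apply Units.ext
        rw [← scG_coe] at hc
        exact hc.symm
    exact (Nat.card_congr (Equiv.ofBijective f hf)).symm
  have h2 : Nat.card ↥H = Nat.card (Cfsg.projQuot H) * Nat.card Fˣ := by
    have h3 := Subgroup.card_eq_card_quotient_mul_card_subgroup ((Cfsg.Geo.scalars ι F).subgroupOf H)
    rw [hZ] at h3
    exact h3
  have hpos : 0 < Nat.card Fˣ := Nat.card_pos
  apply Nat.eq_of_mul_eq_mul_right hpos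
  rw [← h2, h1, mul_comm]

section isom

variable {ι : Type} [Fintype ι] [DecidableEq ι]

/-- Isometries of a quadratic form, in odd characteristic. -/
lemma mem_isom_iff (h2 : (2 : F) ≠ 0) (Q : (ι → F) → F) (A : Matrix ι ι F) (hA : Aᵀ = A)
    (hQ : ∀ v, 2 * Q v = v ⬝ᵥ (A *ᵥ v)) (u : GL ι F) :
    u ∈ Cfsg.isometryGroup F Q ↔ (u : Matrix ι ι F)ᵀ * A * (u : Matrix ι ι F) = A := by
  change (∀ v (_ : ι → F), Q ((u : Matrix ι ι F) *ᵥ v) = Q v) ↔ _
  constructor
  · intro h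
    have h3 := sym_eq_zero h2 ((u : Matrix ι ι F)ᵀ * A * (u : Matrix ι ι F) - A) (by
      rw [Matrix.transpose_sub, Matrix.transpose_mul, Matrix.transpose_mul,
        Matrix.transpose_transpose, hA, Matrix.mul_assoc]) (by
      intro v
      rw [Matrix.sub_mulVec, dotProduct_sub, ← form_transpose, ← hQ, h v 0, ← hQ, sub_self])
    exact sub_eq_zero.mp h3
  · intro h v _
    apply mul_left_cancel₀ h2
    rw [hQ, form_transpose, h, ← hQ]

/-- All multipliers occur for a symmetric form in even dimension, odd characteristic. -/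
lemma sim_surj_odd [Fintype F] (h2 : (2 : F) ≠ 0) (hcard : Fintype.card ι = 2 * m) (A : GL ι F)
    (hA : (A : Matrix ι ι F)ᵀ = A) (c : Fˣ) :
    ∃ u : GL ι F, (u : Matrix ι ι F)ᵀ * (A : Matrix ι ι F) * (u : Matrix ι ι F) = (c : F) • (A : Matrix ι ι F) := by
  let e : ι ≃ Fin (2 * m) := Fintype.equivFinOfCardEq hcard
  set g : GL (Fin (2 * m)) F := rG e A with hg
  have hgs : (g : Matrix (Fin (2 * m)) (Fin (2 * m)) F)ᵀ = g := by
    rw [hg, rG_coe, Matrix.transpose_submatrix, hA]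
  have hgd := gl_det_ne g
  have hc0 : (c : F) ≠ 0 := c.ne_zero
  have hdet : ((c : F) • (g : Matrix (Fin (2 * m)) (Fin (2 * m)) F)).det = (c : F) ^ (2 * m) * (g : Matrix (Fin (2 * m)) (Fin (2 * m)) F).det := by
    rw [Matrix.det_smul, Fintype.card_fin]
  obtain ⟨P, hP⟩ := exists_congr_sym h2 (g : Matrix (Fin (2 * m)) (Fin (2 * m)) F) ((c : F) • (g : Matrix (Fin (2 * m)) (Fin (2 * m)) F)) hgs
    (by rw [Matrix.transpose_smul, hgs]) hgd (by
      rw [hdet]
      exact mul_ne_zero (pow_ne_zero _ hc0) hgd) (by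
      rw [hdet]
      refine ⟨(c : F) ^ m * (g : Matrix (Fin (2 * m)) (Fin (2 * m)) F).det, ?_⟩
      ring)
  refine ⟨(rG e).symm (invT P)⁻¹, ?_⟩
  rw [rG_symm_coe, invT_inv_coe, Matrix.transpose_submatrix, Matrix.transpose_transpose]
  have hAg : (A : Matrix ι ι F) = (g : Matrix (Fin (2 * m)) (Fin (2 * m)) F).submatrix e e := by
    rw [hg, rG_coe]
    ext i j
    simp
  have h3 : (P : Matrix (Fin (2 * m)) (Fin (2 * m)) F).submatrix e e * (g : Matrix (Fin (2 * m)) (Fin (2 * m)) F).submatrix e e *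
      ((P : Matrix (Fin (2 * m)) (Fin (2 * m)) F)ᵀ).submatrix e e = ((c : F) • (g : Matrix (Fin (2 * m)) (Fin (2 * m)) F)).submatrix e e := by
    rw [Matrix.submatrix_mul_equiv, Matrix.submatrix_mul_equiv, hP]
  rw [hAg, h3]
  rfl

end isom

/-- The symplectic group inside `GL`. -/
noncomputable def spGLHom (m : ℕ) (F : Type*) [Field F] : ↥(symplecticGroup (Fin m) F) →* GL (Fin m ⊕ Fin m) F :=
  (Units.map (symplecticGroup (Fin m) F).subtype).comp (toUnits : ↥(symplecticGroup (Fin m) F) ≃* (↥(symplecticGroup (Fin m) F))ˣ).toMonoidHom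

lemma card_pgsp [Fintype F] (hm : 1 ≤ m) : Nat.card (Cfsg.PGSp m F) = Nat.card ↥(symplecticGroup (Fin m) F) := by
  haveI : Nonempty (Fin m ⊕ Fin m) := ⟨Sum.inl ⟨0, by omega⟩⟩
  apply card_projQuot_sim (jG F m) _ (mem_simForm_iff (Matrix.J (Fin m) F)) (spGLHom m F)
  · intro a b h
    apply Subtype.ext
    exact congrArg (fun x : GL (Fin m ⊕ Fin m) F => (x : Matrix (Fin m ⊕ Fin m) (Fin m ⊕ Fin m) F)) h
  · intro u
    constructor
    · rintro ⟨k, rfl⟩
      exact SymplecticGroup.mem_iff'.mp k.2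
    · intro h
      refine ⟨⟨u, SymplecticGroup.mem_iff'.mpr h⟩, ?_⟩
      apply Units.ext
      rfl
  · intro c
    exact ⟨dC m c, dC_J c⟩

lemma card_pgo_plus [Fintype F] (h2 : (2 : F) ≠ 0) (hm : 1 ≤ m) :
    Nat.card (Cfsg.PGO F (Cfsg.quadFormPlus m F)) = Nat.card ↥(Cfsg.isometryGroup F (Cfsg.quadFormPlus m F)) := by
  haveI : Nonempty (Fin m ⊕ Fin m) := ⟨Sum.inl ⟨0, by omega⟩⟩
  apply card_projQuot_sim (gPlusG F m) _ (mem_quadSim_iff h2 _ _ (gramHyp_symm F m) (two_mul_plus F m))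
    (Cfsg.isometryGroup F (Cfsg.quadFormPlus m F)).subtype Subtype.val_injective
  · intro u
    rw [MonoidHom.range_eq_map, ← MonoidHom.range_eq_map, Subgroup.range_subtype]
    exact mem_isom_iff h2 _ _ (gramHyp_symm F m) (two_mul_plus F m) u
  · exact sim_surj_odd (m := m) h2 (by simp; omega) _ (gramHyp_symm F m)

lemma card_pgo_minus [Fintype F] (h2 : (2 : F) ≠ 0) {k : ℕ} {a b : F} (hab : 4 * b - a ^ 2 ≠ 0) :
    Nat.card (Cfsg.PGO F (Cfsg.quadFormMinus k F a b)) = Nat.card ↥(Cfsg.isometryGroup F (Cfsg.quadFormMinus k F a b)) := by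
  haveI : Nonempty ((Fin k ⊕ Fin k) ⊕ Fin 2) := ⟨Sum.inr 0⟩
  apply card_projQuot_sim (gMinusG F k hab) _ (mem_quadSim_iff h2 _ _ (gMinus_symm F k a b) (two_mul_minus F k a b))
    (Cfsg.isometryGroup F (Cfsg.quadFormMinus k F a b)).subtype Subtype.val_injective
  · intro u
    rw [MonoidHom.range_eq_map, ← MonoidHom.range_eq_map, Subgroup.range_subtype]
    exact mem_isom_iff h2 _ _ (gMinus_symm F k a b) (two_mul_minus F k a b) u
  · exact sim_surj_odd (m := k + 1) h2 (by simp; omega) _ (gMinus_symm F k a b)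

/-- Numerics: the orders differ. -/
lemma order_ne {q k : ℕ} (hq : 3 ≤ q) (s : ℕ) (hs : s = q ^ (k + 1) - 1 ∨ s = q ^ (k + 1) + 1) :
    q ^ ((k + 1) ^ 2) * ∏ i ∈ Finset.range (k + 1), (q ^ (2 * (i + 1)) - 1) ≠
      2 * q ^ ((k + 1) * k) * s * ∏ i ∈ Finset.range k, (q ^ (2 * (i + 1)) - 1) := by
  intro h
  have hpos : 0 < ∏ i ∈ Finset.range k, (q ^ (2 * (i + 1)) - 1) := by
    apply Finset.prod_pos
    intro i _
    have h1 : 1 < q ^ (2 * (i + 1)) := Nat.one_lt_pow (by omega) (by omega)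
    omega
  set P := ∏ i ∈ Finset.range k, (q ^ (2 * (i + 1)) - 1) with hP
  rw [Finset.prod_range_succ, ← hP] at h
  set W := q ^ ((k + 1) * k) with hW
  have hWpos : 0 < W := Nat.pow_pos (by omega)
  set Y := q ^ (k + 1) with hY
  have hY3 : 3 ≤ Y := by
    calc 3 ≤ q := hq
      _ = q ^ 1 := (pow_one q).symm
      _ ≤ q ^ (k + 1) := Nat.pow_le_pow_right (by omega) (by omega)
  have e1 : q ^ ((k + 1) ^ 2) = W * Y := by
    rw [hW, hY, ← pow_add]
    congr 1
    ring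
  have e2 : q ^ (2 * (k + 1)) = Y ^ 2 := by
    rw [hY, ← pow_mul]
    congr 1
    ring
  rw [e1, e2] at h
  have h3 : (W * P) * (Y * (Y ^ 2 - 1)) = (W * P) * (2 * s) := by
    calc (W * P) * (Y * (Y ^ 2 - 1)) = W * Y * (P * (Y ^ 2 - 1)) := by ring
      _ = 2 * W * s * P := h
      _ = _ := by ring
  have h4 := Nat.eq_of_mul_eq_mul_left (Nat.mul_pos hWpos hpos) h3
  obtain ⟨Z, hZ⟩ : ∃ Z, Y = Z + 3 := ⟨Y - 3, by omega⟩
  have e3 : Y ^ 2 - 1 = Z ^ 2 + 6 * Z + 8 := by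
    rw [hZ]
    have : (Z + 3) ^ 2 = Z ^ 2 + 6 * Z + 8 + 1 := by ring
    omega
  have hsle : s ≤ Z + 4 := by
    rcases hs with hs | hs <;> omega
  rw [e3, hZ] at h4
  nlinarith

/-- The centraliser of a symmetric class is not `PGSp`. -/
theorem not_equiv_sym [Fintype F] (hodd : Odd (Fintype.card F)) (hm : 1 ≤ m) (hnm : n = 2 * m) (g : GL (Fin n) F)
    (hg : (g : Matrix (Fin n) (Fin n) F)ᵀ = g) :
    ¬ Nonempty (↥(Cfsg.inndiagPSL n F ⊓ Subgroup.centralizer {gr g}) ≃* Cfsg.PGSp m F) := by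
  classical
  rintro ⟨iso⟩
  have h2 : (2 : F) ≠ 0 := two_ne_of_odd hodd
  have hn2 : 2 ≤ n := by omega
  have hq3 : 3 ≤ Fintype.card F := by
    have h3 : 1 < Fintype.card F := Fintype.one_lt_card
    obtain ⟨r, hr⟩ := hodd
    omega
  obtain ⟨k, rfl⟩ : ∃ k, m = k + 1 := ⟨m - 1, by omega⟩
  obtain ⟨ν, hν⟩ := exists_nonsq h2
  have hab := hab_of_nonsq h2 hν
  let e₁ : Fin (k + 1) ⊕ Fin (k + 1) ≃ Fin n := Fintype.equivFinOfCardEq (by simp; omega)
  let e₂ : (Fin k ⊕ Fin k) ⊕ Fin 2 ≃ Fin n := Fintype.equivFinOfCardEq (by simp; omega)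
  set g₂ : GL (Fin n) F := rG e₁ (gPlusG F (k + 1))⁻¹ with hg₂
  set g₃ : GL (Fin n) F := rG e₂ (gMinusG F k hab)⁻¹ with hg₃
  have hs₂ : (g₂ : Matrix (Fin n) (Fin n) F)ᵀ = g₂ := rG_inv_symm e₁ _ (gramHyp_symm F (k + 1))
  have hs₃ : (g₃ : Matrix (Fin n) (Fin n) F)ᵀ = g₃ := rG_inv_symm e₂ _ (gMinus_symm F k 0 (-ν))
  have hd₂ : (g₂ : Matrix (Fin n) (Fin n) F).det = (((-1 : F) ^ (k + 1))⁻¹) := by
    rw [hg₂, det_rG_inv]
    change ((gramHyp (Fin (k + 1)) F).det)⁻¹ = _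
    rw [det_gramHyp]
  have hd₃ : (g₃ : Matrix (Fin n) (Fin n) F).det = (((-1 : F) ^ k * (4 * (-ν) - 0 ^ 2))⁻¹) := by
    rw [hg₃, det_rG_inv]
    change ((gMinus F k 0 (-ν)).det)⁻¹ = _
    rw [det_gMinus]
  have hns : ¬ IsSquare ((g₂ : Matrix (Fin n) (Fin n) F).det * (g₃ : Matrix (Fin n) (Fin n) F).det) := by
    rw [hd₂, hd₃, ← mul_inv, isSquare_inv]
    have e : (-1 : F) ^ (k + 1) * ((-1) ^ k * (4 * (-ν) - 0 ^ 2)) = 4 * ν * ((-1) ^ k * (-1) ^ k) := by
      ring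
    have e' : (-1 : F) ^ k * (-1) ^ k = 1 := by
      rw [← mul_pow]
      simp
    rw [e, e', mul_one]
    rintro ⟨r, hr⟩
    apply hν
    refine ⟨r / 2, ?_⟩
    field_simp
    linear_combination hr
  have hcardSp := Cfsg.Agent.Lib.SpOrder.card_Sp (F := F) (k + 1)
  have hcard : Nat.card ↥(Cfsg.inndiagPSL n F ⊓ Subgroup.centralizer {gr g}) = Nat.card ↥(symplecticGroup (Fin (k + 1)) F) := by
    rw [Nat.card_congr iso.toEquiv, card_pgsp (by omega)]
  rw [Cfsg.Agent.Lib.SpBasic.Sp] at hcardSp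
  rw [hcardSp] at hcard
  rcases sq_dichotomy (gl_det_ne g) hns with h3 | h3
  · have hc := conj_sym_of_square h2 hn2 _ _ hs₂ hg h3
    obtain ⟨a, ha, hh⟩ := hc
    rw [hh] at hcard
    obtain ⟨iso₁⟩ := centr_conj_equiv _ ha (gr g₂)
    obtain ⟨iso₂⟩ := cent_plus (m := k + 1) h2 hn2 e₁
    rw [Nat.card_congr (iso₁.trans iso₂).toEquiv, card_pgo_plus h2 (by omega),
      Cfsg.Agent.Lib.OrthoOrder.card_isometry_plus rfl (k + 1) (by omega)] at hcard
    simp only [Nat.add_sub_cancel] at hcard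
    exact order_ne hq3 _ (Or.inl rfl) hcard.symm
  · have hc := conj_sym_of_square h2 hn2 _ _ hs₃ hg h3
    obtain ⟨a, ha, hh⟩ := hc
    rw [hh] at hcard
    obtain ⟨iso₁⟩ := centr_conj_equiv _ ha (gr g₃)
    obtain ⟨iso₂⟩ := cent_minus h2 hn2 hab e₂
    have hcm : Nat.card ↥(Cfsg.isometryGroup F (Cfsg.quadFormMinus k F 0 (-ν))) =
        2 * Fintype.card F ^ ((k + 1) * k) * (Fintype.card F ^ (k + 1) + 1) *
          ∏ x ∈ Finset.range k, (Fintype.card F ^ (2 * (x + 1)) - 1) :=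
      Cfsg.Agent.Lib.OrthoDihedral.card_isometry_minus (F := F) rfl (k + 1) (by omega) 0 (-ν) (aniso_of_nonsq hν)
    rw [Nat.card_congr (iso₁.trans iso₂).toEquiv, card_pgo_minus h2 hab, hcm] at hcard
    exact order_ne hq3 _ (Or.inr rfl) hcard.symm

end Cfsg.Agent.Lib.AutPSL
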