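import Cfsg.Agent.Lib.AutPSL.OddTwo

/-!
# Split counts of graph involutions of `PSL_n(F)`.
-/

set_option autoImplicit false

namespace Cfsg.Agent.Lib.AutPSL

open Matrix
open scoped MatrixGroups

variable {F : Type*} [Field F] {n m : ℕ}

lemma det_unit_val (u : GL (Fin n) F) :
    ((Matrix.GeneralLinearGroup.det u : Fˣ) : F) = (u : Matrix (Fin n) (Fin n) F).det := rfl

/-- The determinant relation for elements commuting with `gr g`. -/
lemma det_sq_of_commute (hn : 2 ≤ n) (u g : GL (Fin n) F) (h : Commute (dl u) (gr g)) :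
    ∃ c : Fˣ, (u : Matrix (Fin n) (Fin n) F) * g * (u : Matrix (Fin n) (Fin n) F)ᵀ = (c : F) • (g : Matrix (Fin n) (Fin n) F) ∧
      (u : Matrix (Fin n) (Fin n) F).det ^ 2 = (c : F) ^ n := by
  obtain ⟨c, hc⟩ := (commute_dl_gr_iff hn u g).mp h
  refine ⟨c, hc, ?_⟩
  have h1 := congrArg Matrix.det hc
  rw [Matrix.det_mul, Matrix.det_mul, Matrix.det_transpose, Matrix.det_smul, Fintype.card_fin] at h1
  have hg := gl_det_ne g
  apply mul_right_cancel₀ hg
  linear_combination h1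

lemma card_units_eq [Fintype F] : Nat.card Fˣ = Fintype.card F - 1 := by
  rw [Nat.card_units, Nat.card_eq_fintype_card]

/-- The count when all the determinants of commuting elements are `n`-th powers. -/
theorem count_of_trivial [Fintype F] (hn : 2 ≤ n) (g : GL (Fin n) F)
    (hall : ∀ u : GL (Fin n) F, Commute (dl u) (gr g) → ∃ a : Fˣ, Matrix.GeneralLinearGroup.det u = a ^ n) :
    Cfsg.splitClassCount (Cfsg.inndiagPSL n F) (Cfsg.Inn (ProjectiveSpecialLinearGroup (Fin n) F)) (gr g) =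
      Nat.gcd n (Fintype.card F - 1) := by
  rw [count_of_T hn (gr g) (⊥ : Subgroup Fˣ)]
  · rw [Subgroup.card_bot, Nat.div_one, card_units_eq, Nat.gcd_comm]
  · intro t ht
    rw [Subgroup.mem_bot] at ht
    subst ht
    refine ⟨1, ?_, map_one _⟩
    rw [dl_one]
    exact Commute.one_left _
  · intro u hu
    obtain ⟨a, ha⟩ := hall u hu
    exact ⟨a, 1, one_mem _, by rw [ha, mul_one]⟩

/-- Characteristic two. -/
theorem count_two [Fintype F] [CharP F 2] (hn : 2 ≤ n) (g : GL (Fin n) F) :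
    Cfsg.splitClassCount (Cfsg.inndiagPSL n F) (Cfsg.Inn (ProjectiveSpecialLinearGroup (Fin n) F)) (gr g) =
      Nat.gcd n (Fintype.card F - 1) := by
  apply count_of_trivial hn
  intro u hu
  obtain ⟨c, -, hc⟩ := det_sq_of_commute hn u g hu
  obtain ⟨d, hd⟩ := exists_sqrt_unit c
  refine ⟨d, ?_⟩
  apply Units.ext
  rw [det_unit_val, Units.val_pow_eq_pow_val]
  apply eq_of_sq_eq
  rw [hc, hd]
  ring

/-- Odd dimension. -/
theorem count_odd_dim [Fintype F] (hn : 2 ≤ n) (hodd : Odd n) (g : GL (Fin n) F) :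
    Cfsg.splitClassCount (Cfsg.inndiagPSL n F) (Cfsg.Inn (ProjectiveSpecialLinearGroup (Fin n) F)) (gr g) =
      Nat.gcd n (Fintype.card F - 1) := by
  apply count_of_trivial hn
  intro u hu
  obtain ⟨c, -, hc⟩ := det_sq_of_commute hn u g hu
  obtain ⟨k, rfl⟩ := hodd
  -- `c` is a square
  set D := (u : Matrix (Fin (2 * k + 1)) (Fin (2 * k + 1)) F).det with hD
  have hD0 : D ≠ 0 := gl_det_ne u
  have hc0 : (c : F) ≠ 0 := c.ne_zero
  set d : F := D / (c : F) ^ k with hd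
  have hd0 : d ≠ 0 := div_ne_zero hD0 (pow_ne_zero _ hc0)
  have hd2 : d ^ 2 = c := by
    rw [hd, div_pow, hc]
    field_simp
    ring
  have h1 : D ^ 2 = (d ^ (2 * k + 1)) ^ 2 := by
    rw [hc, ← hd2]
    ring
  have h2 : (D - d ^ (2 * k + 1)) * (D + d ^ (2 * k + 1)) = 0 := by
    linear_combination h1
  rcases mul_eq_zero.mp h2 with h3 | h3
  · refine ⟨Units.mk0 d hd0, ?_⟩
    apply Units.ext
    rw [det_unit_val, Units.val_pow_eq_pow_val, Units.val_mk0]
    exact sub_eq_zero.mp h3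
  · refine ⟨Units.mk0 (-d) (neg_ne_zero.mpr hd0), ?_⟩
    apply Units.ext
    rw [det_unit_val, Units.val_pow_eq_pow_val, Units.val_mk0, Odd.neg_pow ⟨k, rfl⟩]
    exact eq_neg_of_add_eq_zero_left h3

/-! ### The symplectic case -/

/-- The diagonal similarity of `J`. -/
noncomputable def dC (m : ℕ) (c : Fˣ) : GL (Fin m ⊕ Fin m) F :=
  Matrix.GeneralLinearGroup.mkOfDetNeZero (fromBlocks ((c : F) • 1) 0 0 1) (by
    rw [Matrix.det_fromBlocks_zero₂₁, Matrix.det_one, mul_one, Matrix.det_smul, Matrix.det_one, mul_one]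
    exact pow_ne_zero _ c.ne_zero)

lemma dC_coe (c : Fˣ) : ((dC m c : GL (Fin m ⊕ Fin m) F) : Matrix (Fin m ⊕ Fin m) (Fin m ⊕ Fin m) F) = fromBlocks ((c : F) • 1) 0 0 1 := rfl

lemma dC_det (c : Fˣ) : ((dC m c : GL (Fin m ⊕ Fin m) F) : Matrix (Fin m ⊕ Fin m) (Fin m ⊕ Fin m) F).det = (c : F) ^ m := by
  rw [dC_coe, Matrix.det_fromBlocks_zero₂₁, Matrix.det_one, mul_one, Matrix.det_smul, Matrix.det_one, mul_one]
  simp

lemma dC_J (c : Fˣ) : ((dC m c : GL (Fin m ⊕ Fin m) F) : Matrix (Fin m ⊕ Fin m) (Fin m ⊕ Fin m) F)ᵀ * J (Fin m) F *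
    ((dC m c : GL (Fin m ⊕ Fin m) F) : Matrix (Fin m ⊕ Fin m) (Fin m ⊕ Fin m) F) = (c : F) • J (Fin m) F := by
  rw [dC_coe, J, Matrix.fromBlocks_transpose, Matrix.fromBlocks_multiply, Matrix.fromBlocks_multiply, Matrix.fromBlocks_smul]
  simp

/-- Elements of the conformal symplectic group have determinant a power of the multiplier. -/
lemma det_of_sim_J (v : GL (Fin m ⊕ Fin m) F) (c : Fˣ)
    (h : (v : Matrix (Fin m ⊕ Fin m) (Fin m ⊕ Fin m) F)ᵀ * J (Fin m) F * (v : Matrix (Fin m ⊕ Fin m) (Fin m ⊕ Fin m) F) = (c : F) • J (Fin m) F) :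
    (v : Matrix (Fin m ⊕ Fin m) (Fin m ⊕ Fin m) F).det = (c : F) ^ m := by
  set w := v * (dC m c)⁻¹ with hw
  set D := ((dC m c : GL (Fin m ⊕ Fin m) F) : Matrix (Fin m ⊕ Fin m) (Fin m ⊕ Fin m) F) with hD
  set D' := (((dC m c)⁻¹ : GL (Fin m ⊕ Fin m) F) : Matrix (Fin m ⊕ Fin m) (Fin m ⊕ Fin m) F) with hD'
  have h1 : D * D' = 1 := gl_mi _
  have h2 : D'ᵀ * Dᵀ = 1 := by
    rw [← Matrix.transpose_mul, h1, Matrix.transpose_one]
  have h3 : (c : F) • (D'ᵀ * J (Fin m) F * D') = J (Fin m) F := by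
    have h4 := dC_J (F := F) (m := m) c
    rw [← hD] at h4
    calc (c : F) • (D'ᵀ * J (Fin m) F * D') = D'ᵀ * ((c : F) • J (Fin m) F) * D' := by
          rw [Matrix.mul_smul, Matrix.smul_mul]
      _ = D'ᵀ * (Dᵀ * J (Fin m) F * D) * D' := by rw [h4]
      _ = (D'ᵀ * Dᵀ) * J (Fin m) F * (D * D') := by
          simp only [Matrix.mul_assoc]
      _ = J (Fin m) F := by rw [h1, h2, Matrix.one_mul, Matrix.mul_one]
  have hwc : (w : Matrix (Fin m ⊕ Fin m) (Fin m ⊕ Fin m) F) = (v : Matrix (Fin m ⊕ Fin m) (Fin m ⊕ Fin m) F) * D' := rfl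
  have hwJ : (w : Matrix (Fin m ⊕ Fin m) (Fin m ⊕ Fin m) F)ᵀ * J (Fin m) F * (w : Matrix (Fin m ⊕ Fin m) (Fin m ⊕ Fin m) F) = J (Fin m) F := by
    rw [hwc, Matrix.transpose_mul]
    calc D'ᵀ * (v : Matrix (Fin m ⊕ Fin m) (Fin m ⊕ Fin m) F)ᵀ * J (Fin m) F * ((v : Matrix (Fin m ⊕ Fin m) (Fin m ⊕ Fin m) F) * D') =
        D'ᵀ * ((v : Matrix (Fin m ⊕ Fin m) (Fin m ⊕ Fin m) F)ᵀ * J (Fin m) F * (v : Matrix (Fin m ⊕ Fin m) (Fin m ⊕ Fin m) F)) * D' := by
          simp only [Matrix.mul_assoc]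
      _ = J (Fin m) F := by rw [h, Matrix.mul_smul, Matrix.smul_mul, h3]
  have hdet : (w : Matrix (Fin m ⊕ Fin m) (Fin m ⊕ Fin m) F).det = 1 :=
    SymplecticGroup.det_eq_one (SymplecticGroup.mem_iff'.mpr hwJ)
  have hvw : (v : Matrix (Fin m ⊕ Fin m) (Fin m ⊕ Fin m) F) = (w : Matrix (Fin m ⊕ Fin m) (Fin m ⊕ Fin m) F) * D := by
    rw [hwc, Matrix.mul_assoc]
    have : D' * D = 1 := gl_im _
    rw [this, Matrix.mul_one]
  rw [hvw, Matrix.det_mul, hdet, one_mul, hD, dC_det]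

/-- The count for the symplectic class. -/
theorem count_symp [Fintype F] (hn : 2 ≤ n) (hnm : n = 2 * m) (e : Fin m ⊕ Fin m ≃ Fin n) :
    Cfsg.splitClassCount (Cfsg.inndiagPSL n F) (Cfsg.Inn (ProjectiveSpecialLinearGroup (Fin n) F)) (gr (rG e (jG F m)⁻¹)) =
      Nat.gcd m (Fintype.card F - 1) := by
  rw [count_of_T hn (gr (rG e (jG F m)⁻¹)) ((powMonoidHom m : Fˣ →* Fˣ).range)]
  · rw [IsCyclic.card_powMonoidHom_range, Nat.div_div_self (Nat.gcd_dvd_left _ _) Nat.card_pos.ne', card_units_eq]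
    rw [Nat.gcd_eq_left, Nat.gcd_comm]
    rw [hnm]
    exact Dvd.dvd.mul_left (Nat.gcd_dvd_right _ _) 2
  · rintro t ⟨a, rfl⟩
    refine ⟨rG e (dC m a), ?_, ?_⟩
    · rw [commute_rG_iff hn]
      exact ⟨a, dC_J a⟩
    · apply Units.ext
      rw [det_unit_val, det_rG, dC_det]
      rfl
  · intro u hu
    have hv : rG e ((rG e).symm u) = u := by simp
    rw [← hv] at hu
    obtain ⟨c, hc⟩ := (commute_rG_iff hn e _ _).mp hu
    have h1 := det_of_sim_J _ c hc
    refine ⟨1, c ^ m, ⟨c, rfl⟩, ?_⟩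
    apply Units.ext
    rw [one_pow, one_mul, det_unit_val, Units.val_pow_eq_pow_val, ← h1, ← det_rG e, hv]

/-! ### The orthogonal case -/

section sym

variable (g : GL (Fin n) F)

lemma commute_mul_left {u v : GL (Fin n) F} {x : MulAut (ProjectiveSpecialLinearGroup (Fin n) F)}
    (hu : Commute (dl u) x) (hv : Commute (dl v) x) : Commute (dl (u * v)) x := by
  rw [← dl_mul]
  exact hu.mul_left hv

/-- A reflection commuting with `gr g`. -/
lemma exists_reflection (h2 : (2 : F) ≠ 0) (hn : 2 ≤ n) (hg : (g : Matrix (Fin n) (Fin n) F)ᵀ = g) :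
    ∃ u : GL (Fin n) F, Commute (dl u) (gr g) ∧ (u : Matrix (Fin n) (Fin n) F).det = -1 := by
  set G := (g : Matrix (Fin n) (Fin n) F) with hG
  have hex : ∃ w : Fin n → F, w ⬝ᵥ (G *ᵥ w) ≠ 0 := by
    by_contra hcon
    simp only [not_exists, not_not] at hcon
    have h0 := sym_eq_zero h2 G hg hcon
    have hne : Nonempty (Fin n) := ⟨⟨0, by omega⟩⟩
    have := gl_det_ne g
    rw [← hG, h0, Matrix.det_zero] at this
    exact this rfl
  obtain ⟨w, hw⟩ := hex
  set s := w ⬝ᵥ (G *ᵥ w) with hs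
  set a : Fin n → F := (2 / s) • (G *ᵥ w) with ha
  set U : Matrix (Fin n) (Fin n) F := 1 - vecMulVec a w with hU
  have hdetU : U.det = -1 := by
    have h3 : U = 1 - (replicateCol Unit a) * (replicateRow Unit w) := by
      rw [hU]
      congr 1
      ext i j
      simp [vecMulVec_apply, Matrix.mul_apply]
    rw [h3, Matrix.det_one_sub_mul_comm, Matrix.det_unique]
    have h4 : ((1 : Matrix Unit Unit F) - replicateRow Unit w * replicateCol Unit a) default default = 1 - w ⬝ᵥ a := by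
      simp [Matrix.mul_apply, dotProduct]
    rw [h4, ha, dotProduct_smul, ← hs, smul_eq_mul]
    field_simp
    ring
  have hdet0 : U.det ≠ 0 := by
    rw [hdetU]
    exact neg_ne_zero.mpr one_ne_zero
  refine ⟨Matrix.GeneralLinearGroup.mkOfDetNeZero U hdet0, ?_, hdetU⟩
  rw [commute_dl_gr_iff hn]
  refine ⟨1, ?_⟩
  change U * G * Uᵀ = ((1 : Fˣ) : F) • G
  rw [Units.val_one, one_smul]
  have hUT : Uᵀ = 1 - vecMulVec w a := by
    rw [hU, Matrix.transpose_sub, Matrix.transpose_one]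
    congr 1
    ext i j
    simp [vecMulVec_apply, mul_comm]
  have hGw : vecMulVec a w * G = (2 / s) • vecMulVec (G *ᵥ w) (G *ᵥ w) := by
    rw [Matrix.vecMulVec_mul, ha]
    have h5 : w ᵥ* G = G *ᵥ w := by
      conv_lhs => rw [← hg]
      rw [Matrix.vecMul_transpose]
    rw [h5]
    ext i j
    simp [vecMulVec_apply, mul_assoc]
  have hGw2 : G * vecMulVec w a = (2 / s) • vecMulVec (G *ᵥ w) (G *ᵥ w) := by
    rw [Matrix.mul_vecMulVec, ha]
    ext i j
    simp [vecMulVec_apply]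
    ring
  have hkey : vecMulVec a w * G * vecMulVec w a = (4 / s) • vecMulVec (G *ᵥ w) (G *ᵥ w) := by
    rw [hGw, Matrix.smul_mul, Matrix.vecMulVec_mul_vecMulVec, ha]
    have h6 : (G *ᵥ w) ⬝ᵥ w = s := by
      rw [hs, dotProduct_comm]
    ext i j
    simp [vecMulVec_apply, h6, h6]
    field_simp
    ring
  rw [hUT, Matrix.sub_mul, Matrix.one_mul, Matrix.mul_sub, Matrix.mul_one, Matrix.sub_mul, hkey, hGw, hGw2]
  have h7 : (4 / s) • vecMulVec (G *ᵥ w) (G *ᵥ w) = (2 / s) • vecMulVec (G *ᵥ w) (G *ᵥ w) + (2 / s) • vecMulVec (G *ᵥ w) (G *ᵥ w) := by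
    rw [← add_smul]
    congr 1
    ring
  rw [h7]
  abel

/-- Elements commuting with `gr g` with determinant a prescribed `m`-th power. -/
lemma exists_det_pow [Fintype F] (h2 : (2 : F) ≠ 0) (hn : 2 ≤ n) (hnm : n = 2 * m) (hg : (g : Matrix (Fin n) (Fin n) F)ᵀ = g) (y : Fˣ) :
    ∃ u : GL (Fin n) F, Commute (dl u) (gr g) ∧ (u : Matrix (Fin n) (Fin n) F).det = (y : F) ^ m := by
  have hgd := gl_det_ne g
  have hy0 : (y : F) ≠ 0 := y.ne_zero
  have hdet : ((y : F) • (g : Matrix (Fin n) (Fin n) F)).det = (y : F) ^ n * (g : Matrix (Fin n) (Fin n) F).det := by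
    rw [Matrix.det_smul, Fintype.card_fin]
  obtain ⟨P, hP⟩ := exists_congr_sym h2 (g : Matrix (Fin n) (Fin n) F) ((y : F) • (g : Matrix (Fin n) (Fin n) F)) hg
    (by rw [Matrix.transpose_smul, hg]) hgd (by
      rw [hdet]
      exact mul_ne_zero (pow_ne_zero _ hy0) hgd) (by
      rw [hdet]
      refine ⟨(y : F) ^ m * (g : Matrix (Fin n) (Fin n) F).det, ?_⟩
      have hp : (y : F) ^ n = ((y : F) ^ m) ^ 2 := by
        rw [hnm]
        ring
      rw [hp]
      ring)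
  have hc : Commute (dl P) (gr g) := (commute_dl_gr_iff hn P g).mpr ⟨y, hP⟩
  obtain ⟨c, hc1, hc2⟩ := det_sq_of_commute hn P g hc
  have hyc : c = y := by
    apply Units.ext
    have h3 : ((c : F) - y) • (g : Matrix (Fin n) (Fin n) F) = 0 := by
      rw [sub_smul, ← hc1, hP, sub_self]
    rcases smul_eq_zero.mp h3 with h4 | h4
    · exact sub_eq_zero.mp h4
    · exfalso
      apply hgd
      have hne : Nonempty (Fin n) := ⟨⟨0, by omega⟩⟩
      rw [h4, Matrix.det_zero]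
  subst hyc
  have h3 : ((P : Matrix (Fin n) (Fin n) F).det - (c : F) ^ m) * ((P : Matrix (Fin n) (Fin n) F).det + (c : F) ^ m) = 0 := by
    have h4 : (c : F) ^ n = ((c : F) ^ m) ^ 2 := by
      rw [hnm]
      ring
    linear_combination hc2 + h4
  rcases mul_eq_zero.mp h3 with h4 | h4
  · exact ⟨P, hc, sub_eq_zero.mp h4⟩
  · obtain ⟨r, hr1, hr2⟩ := exists_reflection g h2 hn hg
    refine ⟨P * r, commute_mul_left hc hr1, ?_⟩
    rw [Units.val_mul, Matrix.det_mul, hr2, eq_neg_of_add_eq_zero_left h4]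
    ring

/-- The count for a symmetric form. -/
theorem count_sym [Fintype F] (hodd : Odd (Fintype.card F)) (hn : 2 ≤ n) (hnm : n = 2 * m) (hg : (g : Matrix (Fin n) (Fin n) F)ᵀ = g) :
    Cfsg.splitClassCount (Cfsg.inndiagPSL n F) (Cfsg.Inn (ProjectiveSpecialLinearGroup (Fin n) F)) (gr g) =
      Nat.gcd n (Fintype.card F - 1) / 2 := by
  have h2 : (2 : F) ≠ 0 := two_ne_of_odd hodd
  obtain ⟨r, hr⟩ := hodd
  have hq1 : Fintype.card F - 1 = 2 * r := by omega
  have hcardU : Nat.card Fˣ = 2 * r := by rw [card_units_eq, hq1]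
  have hr0 : 0 < r := by
    have h3 : 1 < Fintype.card F := Fintype.one_lt_card
    omega
  set d := Nat.gcd m r with hd
  have hdm : d ∣ m := Nat.gcd_dvd_left _ _
  have hdr : d ∣ r := Nat.gcd_dvd_right _ _
  have hd2r : d ∣ Nat.card Fˣ := by
    rw [hcardU]
    exact Dvd.dvd.mul_left hdr 2
  have htarget : Nat.gcd n (Fintype.card F - 1) / 2 = d := by
    rw [hq1, hnm, Nat.gcd_mul_left, Nat.mul_div_cancel_left _ (by norm_num)]
  rw [htarget, count_of_T hn (gr g) ((powMonoidHom d : Fˣ →* Fˣ).range)]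
  · rw [IsCyclic.card_powMonoidHom_range, Nat.div_div_self (Nat.gcd_dvd_left _ _) Nat.card_pos.ne',
      Nat.gcd_eq_right hd2r]
    apply Nat.gcd_eq_left
    rw [hnm]
    exact Dvd.dvd.mul_left hdm 2
  · rintro t ⟨x, rfl⟩
    -- Bezout
    have hbez : (d : ℤ) = m * Nat.gcdA m r + r * Nat.gcdB m r := Nat.gcd_eq_gcd_ab m r
    have hxr : ∀ x : Fˣ, (x ^ r) ^ 2 = 1 := by
      intro x
      rw [← pow_mul, mul_comm, ← hcardU]
      exact pow_card_eq_one'
    have hsplit : x ^ d = (x ^ Nat.gcdA m r) ^ m * (x ^ r) ^ Nat.gcdB m r := by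
      rw [← zpow_natCast x d, hbez, _root_.zpow_add, _root_.zpow_mul, _root_.zpow_mul]
      have hcm : (x ^ m) ^ Nat.gcdA m r = (x ^ Nat.gcdA m r) ^ m := by
        rw [← zpow_natCast x m, ← zpow_natCast (x ^ Nat.gcdA m r) m, _root_.zpow_comm]
      rw [zpow_natCast, zpow_natCast, hcm]
    -- the sign part
    set s := (x ^ r) ^ Nat.gcdB m r with hs
    have hs2 : (s : F) * s = 1 := by
      have h3 : s ^ 2 = 1 := by
        rw [hs, ← zpow_natCast, ← _root_.zpow_mul, mul_comm, _root_.zpow_mul, zpow_natCast, hxr, _root_.one_zpow]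
      have h4 := congrArg (fun z : Fˣ => (z : F)) h3
      simpa [pow_two] using h4
    obtain ⟨u₂, hu₂1, hu₂2⟩ : ∃ u : GL (Fin n) F, Commute (dl u) (gr g) ∧ (u : Matrix (Fin n) (Fin n) F).det = s := by
      rcases mul_self_eq_one_iff.mp hs2 with h3 | h3
      · refine ⟨1, ?_, ?_⟩
        · rw [dl_one]
          exact Commute.one_left _
        · rw [h3, Units.val_one, Matrix.det_one]
      · obtain ⟨u, h4, h5⟩ := exists_reflection g h2 hn hg
        exact ⟨u, h4, by rw [h5, h3]⟩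
    obtain ⟨u₁, hu₁1, hu₁2⟩ := exists_det_pow g h2 hn hnm hg (x ^ Nat.gcdA m r)
    refine ⟨u₁ * u₂, commute_mul_left hu₁1 hu₂1, ?_⟩
    apply Units.ext
    rw [det_unit_val, Units.val_mul, Matrix.det_mul, hu₁2, hu₂2]
    change _ = ((x ^ d : Fˣ) : F)
    rw [hsplit, Units.val_mul, Units.val_pow_eq_pow_val]
  · intro u hu
    refine ⟨1, Matrix.GeneralLinearGroup.det u, ?_, by rw [one_pow, one_mul]⟩
    obtain ⟨c, -, hc⟩ := det_sq_of_commute hn u g hu
    -- `-1` is a `d`-th power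
    obtain ⟨ζ, hζ⟩ := IsCyclic.exists_generator (α := Fˣ)
    have horder : orderOf ζ = 2 * r := by
      rw [← hcardU]
      exact orderOf_eq_card_of_forall_mem_zpowers hζ
    have hζr : ((ζ ^ r : Fˣ) : F) = -1 := by
      have h3 : (ζ ^ r) ^ 2 = 1 := by
        rw [← pow_mul, mul_comm, ← horder]
        exact pow_orderOf_eq_one ζ
      have h4 : ζ ^ r ≠ 1 := by
        intro h5
        have h6 := orderOf_dvd_of_pow_eq_one h5
        rw [horder] at h6
        have := Nat.le_of_dvd hr0 h6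
        omega
      have h5 : ((ζ ^ r : Fˣ) : F) * ((ζ ^ r : Fˣ) : F) = 1 := by
        have h6 := congrArg (fun z : Fˣ => (z : F)) h3
        simpa [pow_two] using h6
      rcases mul_self_eq_one_iff.mp h5 with h6 | h6
      · exact absurd (Units.ext h6) h4
      · exact h6
    obtain ⟨k, hk⟩ := hdr
    obtain ⟨l, hl⟩ := hdm
    have hsq : ((u : Matrix (Fin n) (Fin n) F).det - (c : F) ^ m) * ((u : Matrix (Fin n) (Fin n) F).det + (c : F) ^ m) = 0 := by
      have h4 : (c : F) ^ n = ((c : F) ^ m) ^ 2 := by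
        rw [hnm]
        ring
      linear_combination hc + h4
    rcases mul_eq_zero.mp hsq with h3 | h3
    · refine ⟨c ^ l, ?_⟩
      apply Units.ext
      change ((c ^ l) ^ d : Fˣ).val = _
      rw [det_unit_val, sub_eq_zero.mp h3, ← pow_mul, Units.val_pow_eq_pow_val]
      congr 1
      rw [hl]
      ring
    · refine ⟨c ^ l * ζ ^ k, ?_⟩
      apply Units.ext
      change ((c ^ l * ζ ^ k) ^ d : Fˣ).val = _
      rw [det_unit_val, eq_neg_of_add_eq_zero_left h3, mul_pow, ← pow_mul, ← pow_mul, Units.val_mul, Units.val_pow_eq_pow_val c]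
      have h5 : k * d = r := by rw [hk]; ring
      have h6 : l * d = m := by rw [hl]; ring
      rw [h5, h6, hζr]
      ring

end sym

end Cfsg.Agent.Lib.AutPSL
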