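import Cfsg.Agent.Lib.AutPSL.GramForms

/-!
# Graph automorphisms of `PSL_n(F)` in characteristic two: from similarities to isometries.
-/

set_option autoImplicit false

namespace Cfsg.Agent.Lib.AutPSL

open Matrix
open scoped MatrixGroups

variable {F : Type*} [Field F] {n : ℕ}

section general

variable {ι : Type} [Fintype ι] [DecidableEq ι]

/-- A group mapping to `H` and hitting each class modulo scalars exactly once is `projQuot H`. -/
theorem projQuot_equiv (H : Subgroup (GL ι F)) {K : Type*} [Group K] (φ : K →* GL ι F) (h1 : ∀ k, φ k ∈ H)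
    (h2 : ∀ k, φ k ∈ Cfsg.Geo.scalars ι F → k = 1)
    (h3 : ∀ u ∈ H, ∃ (k : K) (c : Fˣ), (u : Matrix ι ι F) = (c : F) • (φ k : Matrix ι ι F)) :
    Nonempty (K ≃* Cfsg.projQuot H) := by
  let ψ : K →* Cfsg.projQuot H := (QuotientGroup.mk' _).comp (φ.codRestrict H h1)
  have hinj : Function.Injective ψ := by
    rw [injective_iff_map_eq_one]
    intro k hk
    apply h2
    have h4 : ((QuotientGroup.mk' _) ((φ.codRestrict H h1) k) : Cfsg.projQuot H) = 1 := hk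
    rw [QuotientGroup.mk'_apply, QuotientGroup.eq_one_iff, Subgroup.mem_subgroupOf] at h4
    exact h4
  have hsurj : Function.Surjective ψ := by
    intro x
    obtain ⟨⟨u, hu⟩, rfl⟩ := QuotientGroup.mk_surjective x
    obtain ⟨k, c, hc⟩ := h3 u hu
    refine ⟨k, ?_⟩
    change ((QuotientGroup.mk ((φ.codRestrict H h1) k)) : Cfsg.projQuot H) = _
    rw [QuotientGroup.eq, Subgroup.mem_subgroupOf, Cfsg.Geo.mem_scalars_iff]
    refine ⟨c, ?_⟩
    change (((φ k)⁻¹ * u : GL ι F) : Matrix ι ι F) = _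
    rw [Units.val_mul, hc, Matrix.mul_smul, gl_im]
  exact ⟨MulEquiv.ofBijective ψ ⟨hinj, hsurj⟩⟩

lemma two_eq_zero_F [CharP F 2] : (2 : F) = 0 := by
  have := CharP.cast_eq_zero F 2
  exact_mod_cast this

lemma eq_of_sq_eq [CharP F 2] {a b : F} (h : a ^ 2 = b ^ 2) : a = b := by
  have h2 : (a - b) ^ 2 = 0 := by
    linear_combination h + (-a * b + b ^ 2) * (two_eq_zero_F (F := F))
  exact sub_eq_zero.mp (pow_eq_zero_iff (by norm_num) |>.mp h2)

lemma exists_sqrt_unit [Fintype F] [CharP F 2] (c : Fˣ) : ∃ d : Fˣ, (c : F) = d * d := by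
  obtain ⟨d, hd⟩ := FiniteField.isSquare_of_char_two (ringChar.eq F 2) (c : F)
  have hd0 : d ≠ 0 := by
    rintro rfl
    apply c.ne_zero
    rw [hd]
    simp
  exact ⟨Units.mk0 d hd0, hd⟩

/-- The scalar `c` in `GL ι F`. -/
noncomputable def scG (c : Fˣ) : GL ι F where
  val := (c : F) • 1
  inv := ((c⁻¹ : Fˣ) : F) • 1
  val_inv := by
    rw [Matrix.smul_mul, Matrix.one_mul, smul_smul, Units.mul_inv, one_smul]
  inv_val := by
    rw [Matrix.smul_mul, Matrix.one_mul, smul_smul, Units.inv_mul, one_smul]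

lemma scG_coe (c : Fˣ) : ((scG c : GL ι F) : Matrix ι ι F) = (c : F) • 1 := rfl

lemma ne_zero_gl [Nonempty ι] (A : GL ι F) : (A : Matrix ι ι F) ≠ 0 := by
  intro h
  have h1 := gl_det_ne A
  rw [h, Matrix.det_zero] at h1
  exact h1 rfl

/-- The conformal group of a form modulo scalars in characteristic two is the isometry group. -/
theorem sim_equiv_two [Fintype F] [CharP F 2] [Nonempty ι] (A : GL ι F) {K : Type*} [Group K] (φ : K →* GL ι F)
    (hinj : Function.Injective φ)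
    (hφ : ∀ u : GL ι F, u ∈ φ.range ↔ (u : Matrix ι ι F)ᵀ * (A : Matrix ι ι F) * (u : Matrix ι ι F) = (A : Matrix ι ι F)) :
    Nonempty (K ≃* Cfsg.projQuot (Cfsg.Geo.similarityGroup (F := F) (fun x y : ι → F => x ⬝ᵥ ((A : Matrix ι ι F) *ᵥ y)))) := by
  apply projQuot_equiv _ φ
  · intro k
    rw [mem_simForm_iff]
    refine ⟨1, ?_⟩
    rw [(hφ _).mp ⟨k, rfl⟩]
    simp
  · intro k hk
    rw [Cfsg.Geo.mem_scalars_iff] at hk
    obtain ⟨c, hc⟩ := hk
    have h1 := (hφ _).mp ⟨k, rfl⟩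
    rw [hc] at h1
    rw [Matrix.transpose_smul, Matrix.transpose_one, Matrix.smul_mul, Matrix.smul_mul, Matrix.one_mul, Matrix.mul_smul,
      Matrix.mul_one, smul_smul] at h1
    have h2 : (c : F) * c = 1 := by
      by_contra hne
      have h3 : ((c : F) * c - 1) • (A : Matrix ι ι F) = 0 := by
        rw [sub_smul, h1, one_smul, sub_self]
      rcases smul_eq_zero.mp h3 with h4 | h4
      · exact hne (sub_eq_zero.mp h4)
      · exact ne_zero_gl A h4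
    have h3 : (c : F) = 1 := by
      apply eq_of_sq_eq
      rw [pow_two, h2, one_pow]
    apply hinj
    rw [map_one]
    apply Units.ext
    rw [hc, h3, one_smul, Units.val_one]
  · intro u hu
    rw [mem_simForm_iff] at hu
    obtain ⟨c, hc⟩ := hu
    obtain ⟨d, hd⟩ := exists_sqrt_unit c
    have h1 : (u * scG d⁻¹) ∈ φ.range := by
      rw [hφ, Units.val_mul, scG_coe, Matrix.mul_smul, Matrix.mul_one, Matrix.transpose_smul, Matrix.smul_mul, Matrix.mul_smul,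
        Matrix.smul_mul, hc, smul_smul, smul_smul, hd]
      have hd0 : (d : F) ≠ 0 := d.ne_zero
      have : ((d⁻¹ : Fˣ) : F) * (((d⁻¹ : Fˣ) : F) * ((d : F) * d)) = 1 := by
        rw [Units.val_inv_eq_inv_val]
        field_simp
      rw [mul_assoc, this, one_smul]
    obtain ⟨k, hk⟩ := h1
    refine ⟨k, d, ?_⟩
    rw [hk, Units.val_mul, scG_coe, Matrix.mul_smul, Matrix.mul_one, smul_smul, Units.mul_inv, one_smul]

/-- The centraliser of `gr (A⁻¹)` in characteristic two. -/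
theorem cent_equiv_two [Fintype F] [CharP F 2] (hn : 2 ≤ n) (e : ι ≃ Fin n) (A : GL ι F) {K : Type*} [Group K] (φ : K →* GL ι F)
    (hinj : Function.Injective φ)
    (hφ : ∀ u : GL ι F, u ∈ φ.range ↔ (u : Matrix ι ι F)ᵀ * (A : Matrix ι ι F) * (u : Matrix ι ι F) = (A : Matrix ι ι F)) :
    Nonempty (↥(Cfsg.inndiagPSL n F ⊓ Subgroup.centralizer {gr (rG e A⁻¹)}) ≃* K) := by
  haveI : Nonempty ι := ⟨e.symm ⟨0, by omega⟩⟩
  obtain ⟨e₁⟩ := graph_cent_equiv hn e A _ (mem_simForm_iff (A : Matrix ι ι F))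
  obtain ⟨e₂⟩ := sim_equiv_two A φ hinj hφ
  exact ⟨e₁.trans e₂.symm⟩

lemma alt_rG_inv (e : ι ≃ Fin n) (A : GL ι F) (hA : ∀ v : ι → F, v ⬝ᵥ ((A : Matrix ι ι F)ᵀ *ᵥ v) = 0) (x : Fin n → F) :
    x ⬝ᵥ (((rG e A⁻¹ : GL (Fin n) F) : Matrix (Fin n) (Fin n) F) *ᵥ x) = 0 := by
  rw [form_rG_inv, hA]

lemma nonalt_rG_inv (e : ι ≃ Fin n) (A : GL ι F) (z : ι → F) (hz : z ⬝ᵥ ((A : Matrix ι ι F)ᵀ *ᵥ z) ≠ 0) :
    ∃ x : Fin n → F, x ⬝ᵥ (((rG e A⁻¹ : GL (Fin n) F) : Matrix (Fin n) (Fin n) F) *ᵥ x) ≠ 0 := by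
  refine ⟨((A : Matrix ι ι F) *ᵥ z) ∘ e.symm, ?_⟩
  rw [form_rG_inv]
  have h1 : (((A : Matrix ι ι F) *ᵥ z) ∘ e.symm) ∘ e = (A : Matrix ι ι F) *ᵥ z := by
    ext i
    simp
  rw [h1, Matrix.mulVec_mulVec, gl_im, Matrix.one_mulVec]
  exact hz

end general

lemma isConj_symm' {X : Type*} [Group X] {H : Subgroup X} {x y : X} (h : Cfsg.IsConjUnder H x y) :
    Cfsg.IsConjUnder H y x := by
  obtain ⟨a, ha, rfl⟩ := h
  refine ⟨a⁻¹, H.inv_mem ha, ?_⟩
  group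

lemma isConj_trans' {X : Type*} [Group X] {H : Subgroup X} {x y z : X} (h : Cfsg.IsConjUnder H x y)
    (h' : Cfsg.IsConjUnder H y z) : Cfsg.IsConjUnder H x z := by
  obtain ⟨a, ha, rfl⟩ := h
  obtain ⟨b, hb, rfl⟩ := h'
  refine ⟨b * a, H.mul_mem hb ha, ?_⟩
  group

lemma conj_alt (hn : 2 ≤ n) (g h : GL (Fin n) F)
    (hg : ∀ v : Fin n → F, v ⬝ᵥ ((g : Matrix (Fin n) (Fin n) F) *ᵥ v) = 0)
    (hh : ∀ v : Fin n → F, v ⬝ᵥ ((h : Matrix (Fin n) (Fin n) F) *ᵥ v) = 0) :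
    Cfsg.IsConjUnder (Cfsg.inndiagPSL n F) (gr g) (gr h) := by
  obtain ⟨P, hP⟩ := exists_congr_alt _ _ hg hh (gl_det_ne g) (gl_det_ne h)
  exact (isConj_gr_iff hn g h).mpr ⟨P, 1, by rw [hP]; simp⟩

lemma conj_one_of_nonalt [Fintype F] [CharP F 2] (hn : 2 ≤ n) (g : GL (Fin n) F)
    (hgs : (g : Matrix (Fin n) (Fin n) F)ᵀ = g) (hg : ∃ v : Fin n → F, v ⬝ᵥ ((g : Matrix (Fin n) (Fin n) F) *ᵥ v) ≠ 0) :
    Cfsg.IsConjUnder (Cfsg.inndiagPSL n F) (gr g) (gr 1) := by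
  obtain ⟨P, hP⟩ := exists_congr_one _ hgs (gl_det_ne g) hg
  exact (isConj_gr_iff hn g 1).mpr ⟨P, 1, by rw [hP]; simp⟩

lemma conj_nonalt [Fintype F] [CharP F 2] (hn : 2 ≤ n) (g h : GL (Fin n) F)
    (hgs : (g : Matrix (Fin n) (Fin n) F)ᵀ = g) (hhs : (h : Matrix (Fin n) (Fin n) F)ᵀ = h)
    (hg : ∃ v : Fin n → F, v ⬝ᵥ ((g : Matrix (Fin n) (Fin n) F) *ᵥ v) ≠ 0)
    (hh : ∃ v : Fin n → F, v ⬝ᵥ ((h : Matrix (Fin n) (Fin n) F) *ᵥ v) ≠ 0) :
    Cfsg.IsConjUnder (Cfsg.inndiagPSL n F) (gr g) (gr h) :=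
  isConj_trans' (conj_one_of_nonalt hn g hgs hg) (isConj_symm' (conj_one_of_nonalt hn h hhs hh))

lemma not_conj_alt_nonalt (hn : 2 ≤ n) (g h : GL (Fin n) F)
    (hg : ∀ v : Fin n → F, v ⬝ᵥ ((g : Matrix (Fin n) (Fin n) F) *ᵥ v) = 0)
    (hh : ∃ v : Fin n → F, v ⬝ᵥ ((h : Matrix (Fin n) (Fin n) F) *ᵥ v) ≠ 0) :
    ¬ Cfsg.IsConjUnder (Cfsg.inndiagPSL n F) (gr g) (gr h) := by
  intro hc
  obtain ⟨P, c, hP⟩ := (isConj_gr_iff hn g h).mp hc
  obtain ⟨v, hv⟩ := hh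
  apply hv
  have h1 := hg ((P : Matrix (Fin n) (Fin n) F)ᵀ *ᵥ v)
  have h2 := form_transpose (P : Matrix (Fin n) (Fin n) F)ᵀ (g : Matrix (Fin n) (Fin n) F) v v
  rw [h1, Matrix.transpose_transpose, hP, Matrix.smul_mulVec, dotProduct_smul, smul_eq_mul] at h2
  exact (mul_eq_zero.mp h2.symm).resolve_left c.ne_zero

/-- In characteristic two, skew means symmetric. -/
lemma neg_matrix_two [CharP F 2] {κ : Type*} (M : Matrix κ κ F) : -M = M := by
  ext i j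
  exact CharTwo.neg_eq _

/-- Rank of a rank one matrix. -/
lemma rank_vecMulVec_one {κ : Type*} [Fintype κ] [DecidableEq κ] (w f : κ → F) (hw : w ≠ 0) (hf : f ≠ 0) :
    (Matrix.vecMulVec w f).rank = 1 := by
  have h1 := Matrix.rank_vecMulVec_le w f
  have h2 : (Matrix.vecMulVec w f).rank ≠ 0 := by
    intro h0
    have h3 : LinearMap.range (Matrix.vecMulVec w f).mulVecLin = ⊥ :=
      Submodule.finrank_eq_zero.mp h0
    obtain ⟨j, hj⟩ := Function.ne_iff.mp hf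
    have h4 := LinearMap.mem_range_self (Matrix.vecMulVec w f).mulVecLin (Pi.single j 1)
    rw [h3, Submodule.mem_bot, Matrix.mulVecLin_apply, Matrix.vecMulVec_mulVec, dotProduct_single, mul_one] at h4
    rcases smul_eq_zero.mp h4 with h5 | h5
    · simp at h5
      exact hj h5
    · exact hw h5
  omega

end Cfsg.Agent.Lib.AutPSL
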