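import Cfsg.Agent.Lib.AutPSL.GraphTwo

/-!
# Characteristic two, odd dimension: the isometry group of `x₀² + Σ xᵢ yᵢ` is the isometry group of
the non-alternating bilinear form `1 ⊕ H`.
-/

set_option autoImplicit false

namespace Cfsg.Agent.Lib.AutPSL

open Matrix
open scoped MatrixGroups
open Cfsg.Agent.Lib.QuadGram

variable {F : Type*} [Field F] {m : ℕ}

/-- The polar Gram matrix of `Σ xᵢ yᵢ`. -/
local notation "HH" => gramHyp (Fin m) F

/-- A vector of the odd-dimensional space. -/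
def vv (x : F) (y : Fin m ⊕ Fin m → F) : Unit ⊕ (Fin m ⊕ Fin m) → F := Sum.elim (fun _ => x) y

lemma vv_eta (v : Unit ⊕ (Fin m ⊕ Fin m) → F) : v = vv (v (Sum.inl ())) (v ∘ Sum.inr) := by
  ext i
  rcases i with i | i
  · rfl
  · rfl

lemma quadOdd_vv (x : F) (y : Fin m ⊕ Fin m → F) : Cfsg.quadFormOdd m F (vv x y) = x ^ 2 + Cfsg.quadFormPlus m F y := rfl

lemma vv_add (x x' : F) (y y' : Fin m ⊕ Fin m → F) : vv x y + vv x' y' = vv (x + x') (y + y') := by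
  ext i
  rcases i with i | i
  · rfl
  · rfl

lemma blk_mulVec (a : Matrix Unit Unit F) (b : Matrix Unit (Fin m ⊕ Fin m) F) (c : Matrix (Fin m ⊕ Fin m) Unit F)
    (h : Matrix (Fin m ⊕ Fin m) (Fin m ⊕ Fin m) F) (x : F) (y : Fin m ⊕ Fin m → F) :
    fromBlocks a b c h *ᵥ vv x y = vv (a () () * x + (b *ᵥ y) ()) (fun j => c j () * x + (h *ᵥ y) j) := by
  ext i
  rcases i with i | i
  · change (fromBlocks a b c h *ᵥ Sum.elim (fun _ => x) y) (Sum.inl i) = _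
    rw [Matrix.fromBlocks_mulVec]
    simp [vv, Matrix.mulVec, dotProduct]
  · change (fromBlocks a b c h *ᵥ Sum.elim (fun _ => x) y) (Sum.inr i) = _
    rw [Matrix.fromBlocks_mulVec]
    simp [vv, Matrix.mulVec, dotProduct]

lemma q_add (y y' : Fin m ⊕ Fin m → F) :
    Cfsg.quadFormPlus m F (y + y') = Cfsg.quadFormPlus m F y + Cfsg.quadFormPlus m F y' + y ⬝ᵥ (HH *ᵥ y') := by
  have h1 := polar_hyp (F := F) m y y'
  have h2 : Cfsg.quadFormPlus m F (y + y') - Cfsg.quadFormPlus m F y - Cfsg.quadFormPlus m F y' = y ⬝ᵥ (HH *ᵥ y') := h1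
  linear_combination h2

lemma q_smul (t : F) (y : Fin m ⊕ Fin m → F) : Cfsg.quadFormPlus m F (t • y) = t ^ 2 * Cfsg.quadFormPlus m F y := by
  simp only [Cfsg.quadFormPlus, Pi.smul_apply, smul_eq_mul, Finset.mul_sum]
  refine Finset.sum_congr rfl fun i _ => ?_
  ring

lemma gramHyp_det_ne : (HH).det ≠ 0 := by
  rw [det_gramHyp]
  exact pow_ne_zero _ (by norm_num)

section two

variable [CharP F 2]

lemma form_H_self (y : Fin m ⊕ Fin m → F) : y ⬝ᵥ (HH *ᵥ y) = 0 := by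
  rw [← two_mul_plus, two_eq_zero_F, zero_mul]

lemma sq_add_two (a b : F) : (a + b) ^ 2 = a ^ 2 + b ^ 2 := by
  linear_combination (a * b) * (two_eq_zero_F (F := F))

/-- A function on `κ → F` which is additive and homogeneous of degree two and vanishes on a basis is zero. -/
lemma additive_quad_zero {κ : Type*} [Fintype κ] [DecidableEq κ] (f : (κ → F) → F) (hadd : ∀ y y', f (y + y') = f y + f y')
    (hsmul : ∀ (t : F) y, f (t • y) = t ^ 2 * f y) (h0 : ∀ j, f (Pi.single j 1) = 0) (y : κ → F) : f y = 0 := by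
  let φ : (κ → F) →+ F := AddMonoidHom.mk' f hadd
  have h1 : y = ∑ j, y j • (Pi.single j 1 : κ → F) := by
    ext i
    simp [Finset.sum_apply, Pi.single_apply]
  have h2 : f y = φ y := rfl
  rw [h2, h1, map_sum]
  apply Finset.sum_eq_zero
  intro j _
  change f _ = 0
  rw [hsmul, h0, mul_zero]

/-- Existence of the linear form correcting a symplectic matrix to an isometry. -/
lemma exists_row [Fintype F] (h : Matrix (Fin m ⊕ Fin m) (Fin m ⊕ Fin m) F) (hh : hᵀ * HH * h = HH) :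
    ∃ b : Matrix Unit (Fin m ⊕ Fin m) F, ∀ y, ((b *ᵥ y) ()) ^ 2 + Cfsg.quadFormPlus m F (h *ᵥ y) = Cfsg.quadFormPlus m F y := by
  have hex : ∀ j : Fin m ⊕ Fin m, ∃ r : F, Cfsg.quadFormPlus m F (h *ᵥ Pi.single j 1) = r * r :=
    fun j => FiniteField.isSquare_of_char_two (ringChar.eq F 2) _
  choose r hr using hex
  refine ⟨Matrix.of fun _ j => r j, ?_⟩
  have hform : ∀ y y', (h *ᵥ y) ⬝ᵥ (HH *ᵥ (h *ᵥ y')) = y ⬝ᵥ (HH *ᵥ y') := by
    intro y y'
    rw [form_transpose, hh]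
  have hq0 : ∀ j : Fin m ⊕ Fin m, Cfsg.quadFormPlus m F (Pi.single j 1) = 0 := by
    intro j
    apply Finset.sum_eq_zero
    intro i _
    rcases j with j | j
    · have : (Pi.single (Sum.inl j) 1 : Fin m ⊕ Fin m → F) (Sum.inr i) = 0 := by simp
      rw [this, mul_zero]
    · have : (Pi.single (Sum.inr j) 1 : Fin m ⊕ Fin m → F) (Sum.inl i) = 0 := by simp
      rw [this, zero_mul]
  have hb : ∀ y : Fin m ⊕ Fin m → F, ((Matrix.of fun _ j => r j : Matrix Unit (Fin m ⊕ Fin m) F) *ᵥ y) () = r ⬝ᵥ y := by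
    intro y
    rfl
  have key := additive_quad_zero (fun y : Fin m ⊕ Fin m → F => (r ⬝ᵥ y) ^ 2 + Cfsg.quadFormPlus m F (h *ᵥ y) + Cfsg.quadFormPlus m F y)
    (by
      intro y y'
      rw [dotProduct_add, sq_add_two, Matrix.mulVec_add, q_add, q_add, hform]
      linear_combination (y ⬝ᵥ (HH *ᵥ y')) * (two_eq_zero_F (F := F)))
    (by
      intro t y
      rw [dotProduct_smul, Matrix.mulVec_smul, q_smul, q_smul, smul_eq_mul]
      ring)
    (by
      intro j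
      rw [hq0, hr, add_zero, dotProduct_single, mul_one]
      linear_combination (r j * r j) * (two_eq_zero_F (F := F)))
  intro y
  rw [hb]
  have h1 := key y
  linear_combination h1 - (Cfsg.quadFormPlus m F y) * (two_eq_zero_F (F := F))

lemma mem_iso_odd (g : GL (Unit ⊕ (Fin m ⊕ Fin m)) F) :
    g ∈ Cfsg.isometryGroup F (Cfsg.quadFormOdd m F) ↔
      ∀ v, Cfsg.quadFormOdd m F ((g : Matrix (Unit ⊕ (Fin m ⊕ Fin m)) (Unit ⊕ (Fin m ⊕ Fin m)) F) *ᵥ v) = Cfsg.quadFormOdd m F v :=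
  ⟨fun h v => h v 0, fun h u _ => h u⟩

lemma Qodd_add (v v' : Unit ⊕ (Fin m ⊕ Fin m) → F) :
    Cfsg.quadFormOdd m F (v + v') = Cfsg.quadFormOdd m F v + Cfsg.quadFormOdd m F v' +
      (v ∘ Sum.inr) ⬝ᵥ (HH *ᵥ (v' ∘ Sum.inr)) := by
  conv_lhs => rw [vv_eta v, vv_eta v', vv_add, quadOdd_vv, sq_add_two, q_add]
  conv_rhs => rw [vv_eta v, vv_eta v']
  rw [quadOdd_vv, quadOdd_vv]
  have h1 : (vv (v (Sum.inl ())) (v ∘ Sum.inr)) ∘ Sum.inr = v ∘ Sum.inr := rfl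
  have h2 : (vv (v' (Sum.inl ())) (v' ∘ Sum.inr)) ∘ Sum.inr = v' ∘ Sum.inr := rfl
  rw [h1, h2]
  ring

lemma vv_comp_inr (x : F) (y : Fin m ⊕ Fin m → F) : (vv x y) ∘ Sum.inr = y := rfl

lemma q_zero : Cfsg.quadFormPlus m F 0 = 0 := by
  simp [Cfsg.quadFormPlus]

/-- Structure of isometries of `x₀² + Σ xᵢ yᵢ`. -/
lemma iso_blocks (g : GL (Unit ⊕ (Fin m ⊕ Fin m)) F) (hg : g ∈ Cfsg.isometryGroup F (Cfsg.quadFormOdd m F)) :
    ∃ (b : Matrix Unit (Fin m ⊕ Fin m) F) (h : Matrix (Fin m ⊕ Fin m) (Fin m ⊕ Fin m) F),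
      (g : Matrix (Unit ⊕ (Fin m ⊕ Fin m)) (Unit ⊕ (Fin m ⊕ Fin m)) F) = fromBlocks 1 b 0 h ∧ hᵀ * HH * h = HH ∧
        ∀ y, ((b *ᵥ y) ()) ^ 2 + Cfsg.quadFormPlus m F (h *ᵥ y) = Cfsg.quadFormPlus m F y := by
  set M := (g : Matrix (Unit ⊕ (Fin m ⊕ Fin m)) (Unit ⊕ (Fin m ⊕ Fin m)) F) with hMdef
  have hiso := (mem_iso_odd g).mp hg
  set a := M.toBlocks₁₁ with ha
  set b := M.toBlocks₁₂ with hb
  set c := M.toBlocks₂₁ with hc
  set h := M.toBlocks₂₂ with hh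
  have hM : M = fromBlocks a b c h := (Matrix.fromBlocks_toBlocks M).symm
  have hact : ∀ x y, M *ᵥ vv x y = vv (a () () * x + (b *ᵥ y) ()) (fun j => c j () * x + (h *ᵥ y) j) := by
    intro x y
    rw [hM, blk_mulVec]
  have hpol : ∀ v v', ((M *ᵥ v) ∘ Sum.inr) ⬝ᵥ (HH *ᵥ ((M *ᵥ v') ∘ Sum.inr)) = (v ∘ Sum.inr) ⬝ᵥ (HH *ᵥ (v' ∘ Sum.inr)) := by
    intro v v'
    have h1 := hiso (v + v')
    rw [Matrix.mulVec_add, Qodd_add, Qodd_add, hiso, hiso] at h1
    exact add_left_cancel h1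
  -- the column of `e₀`
  have hc0 : c = 0 := by
    have h1 : ∀ y, (fun j => c j ()) ⬝ᵥ (HH *ᵥ y) = 0 := by
      intro y
      -- choose the preimage
      set v' := ((g⁻¹ : GL (Unit ⊕ (Fin m ⊕ Fin m)) F) : Matrix (Unit ⊕ (Fin m ⊕ Fin m)) (Unit ⊕ (Fin m ⊕ Fin m)) F) *ᵥ vv 0 y with hv'
      have h2 : M *ᵥ v' = vv 0 y := by
        rw [hv', Matrix.mulVec_mulVec, hMdef, gl_mi, Matrix.one_mulVec]
      have h3 := hpol (vv 1 0) v'
      rw [h2, hact, vv_comp_inr, vv_comp_inr, vv_comp_inr, zero_dotProduct, Matrix.mulVec_zero] at h3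
      simp only [mul_one, Pi.zero_apply, add_zero] at h3
      exact h3
    have h2 : (fun j => c j ()) ᵥ* HH = 0 := by
      apply dotProduct_eq_zero
      intro y
      rw [← Matrix.dotProduct_mulVec]
      exact h1 y
    have h3 := Matrix.eq_zero_of_vecMul_eq_zero gramHyp_det_ne h2
    ext j i
    exact congrFun h3 j
  have ha1 : a = 1 := by
    have h1 := hiso (vv 1 0)
    rw [hact, quadOdd_vv, quadOdd_vv, hc0] at h1
    have h2 : (fun j => (0 : Matrix (Fin m ⊕ Fin m) Unit F) j () * (1 : F) + (h *ᵥ 0) j) = 0 := by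
      ext j
      simp
    rw [h2, q_zero, Matrix.mulVec_zero] at h1
    simp only [mul_one, Pi.zero_apply, add_zero, one_pow] at h1
    have h3 : a () () = 1 := by
      apply eq_of_sq_eq
      rw [h1, one_pow]
    ext i j
    simpa using h3
  have hvh : ∀ y, (M *ᵥ vv 0 y) ∘ Sum.inr = h *ᵥ y := by
    intro y
    rw [hact, vv_comp_inr]
    ext j
    simp
  have hsp : hᵀ * HH * h = HH := by
    ext i j
    have h1 := hpol (vv 0 (Pi.single i 1)) (vv 0 (Pi.single j 1))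
    rw [hvh, hvh, vv_comp_inr, vv_comp_inr, form_transpose, form_entry, form_entry] at h1
    exact h1
  refine ⟨b, h, ?_, hsp, ?_⟩
  · rw [hM, ha1, hc0]
  · intro y
    have h1 := hiso (vv 0 y)
    rw [hact, quadOdd_vv, quadOdd_vv, hc0] at h1
    simp only [mul_zero, zero_add, Matrix.zero_apply, zero_mul] at h1
    rw [zero_pow (by norm_num), zero_add] at h1
    exact h1

lemma det_ne_of_sp (h : Matrix (Fin m ⊕ Fin m) (Fin m ⊕ Fin m) F) (hh : hᵀ * HH * h = HH) : h.det ≠ 0 := by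
  intro h0
  have h1 := congrArg Matrix.det hh
  rw [Matrix.det_mul, h0, mul_zero] at h1
  exact gramHyp_det_ne h1.symm

/-- Building an isometry from blocks. -/
lemma blocks_iso (b : Matrix Unit (Fin m ⊕ Fin m) F) (h : Matrix (Fin m ⊕ Fin m) (Fin m ⊕ Fin m) F) (hh : hᵀ * HH * h = HH)
    (hq : ∀ y, ((b *ᵥ y) ()) ^ 2 + Cfsg.quadFormPlus m F (h *ᵥ y) = Cfsg.quadFormPlus m F y) :
    ∃ g : GL (Unit ⊕ (Fin m ⊕ Fin m)) F, g ∈ Cfsg.isometryGroup F (Cfsg.quadFormOdd m F) ∧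
      (g : Matrix (Unit ⊕ (Fin m ⊕ Fin m)) (Unit ⊕ (Fin m ⊕ Fin m)) F) = fromBlocks 1 b 0 h := by
  have hd : (fromBlocks 1 b 0 h : Matrix (Unit ⊕ (Fin m ⊕ Fin m)) (Unit ⊕ (Fin m ⊕ Fin m)) F).det ≠ 0 := by
    rw [Matrix.det_fromBlocks_zero₂₁, Matrix.det_one, one_mul]
    exact det_ne_of_sp h hh
  refine ⟨Matrix.GeneralLinearGroup.mkOfDetNeZero _ hd, ?_, rfl⟩
  rw [mem_iso_odd]
  intro v
  rw [vv_eta v]
  change Cfsg.quadFormOdd m F (fromBlocks 1 b 0 h *ᵥ _) = _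
  rw [blk_mulVec, quadOdd_vv, quadOdd_vv]
  simp only [Matrix.one_apply_eq, one_mul, Matrix.zero_apply, zero_mul, zero_add]
  have h1 : (fun j => (h *ᵥ (v ∘ Sum.inr)) j) = h *ᵥ (v ∘ Sum.inr) := rfl
  rw [h1, sq_add_two, add_assoc, hq]

lemma toBlocks_iso_ne (g : ↥(Cfsg.isometryGroup F (Cfsg.quadFormOdd m F))) :
    (fromBlocks 1 0 0 ((g.1 : Matrix (Unit ⊕ (Fin m ⊕ Fin m)) (Unit ⊕ (Fin m ⊕ Fin m)) F).toBlocks₂₂) :
      Matrix (Unit ⊕ (Fin m ⊕ Fin m)) (Unit ⊕ (Fin m ⊕ Fin m)) F).det ≠ 0 := by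
  obtain ⟨b, h, hg, hh, -⟩ := iso_blocks g.1 g.2
  rw [Matrix.det_fromBlocks_zero₂₁, Matrix.det_one, one_mul, hg, Matrix.toBlocks_fromBlocks₂₂]
  exact det_ne_of_sp h hh

/-- The block-diagonal part of an isometry. -/
noncomputable def dgPartFun (g : ↥(Cfsg.isometryGroup F (Cfsg.quadFormOdd m F))) : GL (Unit ⊕ (Fin m ⊕ Fin m)) F :=
  Matrix.GeneralLinearGroup.mkOfDetNeZero _ (toBlocks_iso_ne g)

lemma dgPartFun_coe (g : ↥(Cfsg.isometryGroup F (Cfsg.quadFormOdd m F))) :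
    ((dgPartFun g : GL (Unit ⊕ (Fin m ⊕ Fin m)) F) : Matrix (Unit ⊕ (Fin m ⊕ Fin m)) (Unit ⊕ (Fin m ⊕ Fin m)) F) =
      fromBlocks 1 0 0 ((g.1 : Matrix (Unit ⊕ (Fin m ⊕ Fin m)) (Unit ⊕ (Fin m ⊕ Fin m)) F).toBlocks₂₂) := rfl

/-- The block-diagonal part as a homomorphism. -/
noncomputable def dgPart : ↥(Cfsg.isometryGroup F (Cfsg.quadFormOdd m F)) →* GL (Unit ⊕ (Fin m ⊕ Fin m)) F :=
  MonoidHom.mk' dgPartFun (by
    intro g g'
    apply Units.ext
    obtain ⟨b, h, hg, -, -⟩ := iso_blocks g.1 g.2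
    obtain ⟨b', h', hg', -, -⟩ := iso_blocks g'.1 g'.2
    rw [Units.val_mul, dgPartFun_coe, dgPartFun_coe, dgPartFun_coe, Subgroup.coe_mul, Units.val_mul, hg, hg',
      Matrix.fromBlocks_multiply, Matrix.toBlocks_fromBlocks₂₂, Matrix.toBlocks_fromBlocks₂₂, Matrix.toBlocks_fromBlocks₂₂,
      Matrix.fromBlocks_multiply]
    simp)

lemma dgPart_injective : Function.Injective (dgPart : ↥(Cfsg.isometryGroup F (Cfsg.quadFormOdd m F)) →* GL (Unit ⊕ (Fin m ⊕ Fin m)) F) := by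
  intro g g' hgg
  obtain ⟨b, h, hg, -, hq⟩ := iso_blocks g.1 g.2
  obtain ⟨b', h', hg', -, hq'⟩ := iso_blocks g'.1 g'.2
  have h1 := congrArg (fun x : GL (Unit ⊕ (Fin m ⊕ Fin m)) F => (x : Matrix (Unit ⊕ (Fin m ⊕ Fin m)) (Unit ⊕ (Fin m ⊕ Fin m)) F)) hgg
  change fromBlocks 1 0 0 _ = fromBlocks 1 0 0 _ at h1
  rw [hg, hg', Matrix.toBlocks_fromBlocks₂₂, Matrix.toBlocks_fromBlocks₂₂] at h1
  have h2 : h = h' := (Matrix.fromBlocks_inj.mp h1).2.2.2
  subst h2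
  have h3 : b = b' := by
    ext i j
    have h4 := hq (Pi.single j 1)
    have h5 := hq' (Pi.single j 1)
    have h6 : ((b *ᵥ Pi.single j 1) ()) ^ 2 = ((b' *ᵥ Pi.single j 1) ()) ^ 2 := by
      have := h4.trans h5.symm
      exact add_right_cancel this
    have h7 := eq_of_sq_eq h6
    rw [Matrix.mulVec_single_one, Matrix.mulVec_single_one] at h7
    exact h7
  subst h3
  apply Subtype.ext
  apply Units.ext
  rw [hg, hg']

/-- The non-alternating form `1 ⊕ H`. -/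
def dForm (m : ℕ) (F : Type*) [Field F] : Matrix (Unit ⊕ (Fin m ⊕ Fin m)) (Unit ⊕ (Fin m ⊕ Fin m)) F :=
  fromBlocks 1 0 0 (gramHyp (Fin m) F)

omit [CharP F 2] in
lemma dForm_det : (dForm m F).det ≠ 0 := by
  rw [dForm, Matrix.det_fromBlocks_zero₂₁, Matrix.det_one, one_mul]
  exact gramHyp_det_ne

/-- The form in `GL`. -/
noncomputable def dFormG (m : ℕ) (F : Type*) [Field F] : GL (Unit ⊕ (Fin m ⊕ Fin m)) F :=
  Matrix.GeneralLinearGroup.mkOfDetNeZero (dForm m F) dForm_det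

omit [CharP F 2] in
lemma dForm_symm : (dForm m F)ᵀ = dForm m F := by
  rw [dForm, Matrix.fromBlocks_transpose, gramHyp_symm]
  simp

lemma dForm_vv (x : F) (y : Fin m ⊕ Fin m → F) : vv x y ⬝ᵥ (dForm m F *ᵥ vv x y) = x ^ 2 := by
  rw [dForm, blk_mulVec]
  simp only [Matrix.one_apply_eq, one_mul, Matrix.zero_apply, zero_mul, zero_add]
  rw [dot_sum F]
  have h1 : (fun j => (HH *ᵥ y) j) = HH *ᵥ y := rfl
  rw [vv_comp_inr, vv_comp_inr, h1, form_H_self, add_zero]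
  simp [vv, dotProduct, pow_two]

/-- The image of the block-diagonal part is the isometry group of `1 ⊕ H`. -/
lemma mem_range_dgPart [Fintype F] (u : GL (Unit ⊕ (Fin m ⊕ Fin m)) F) :
    u ∈ (dgPart : ↥(Cfsg.isometryGroup F (Cfsg.quadFormOdd m F)) →* GL (Unit ⊕ (Fin m ⊕ Fin m)) F).range ↔
      (u : Matrix (Unit ⊕ (Fin m ⊕ Fin m)) (Unit ⊕ (Fin m ⊕ Fin m)) F)ᵀ * dForm m F *
        (u : Matrix (Unit ⊕ (Fin m ⊕ Fin m)) (Unit ⊕ (Fin m ⊕ Fin m)) F) = dForm m F := by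
  constructor
  · rintro ⟨g, rfl⟩
    obtain ⟨b, h, hg, hh, -⟩ := iso_blocks g.1 g.2
    change (fromBlocks 1 0 0 _)ᵀ * dForm m F * (fromBlocks 1 0 0 _) = dForm m F
    rw [hg, Matrix.toBlocks_fromBlocks₂₂, dForm, Matrix.fromBlocks_transpose, Matrix.fromBlocks_multiply,
      Matrix.fromBlocks_multiply]
    simp [hh]
  · intro h0
    set U := (u : Matrix (Unit ⊕ (Fin m ⊕ Fin m)) (Unit ⊕ (Fin m ⊕ Fin m)) F) with hU
    set a := U.toBlocks₁₁ with ha
    set b := U.toBlocks₁₂ with hb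
    set c := U.toBlocks₂₁ with hc
    set h := U.toBlocks₂₂ with hh
    have hM : U = fromBlocks a b c h := (Matrix.fromBlocks_toBlocks U).symm
    have hact : ∀ x y, U *ᵥ vv x y = vv (a () () * x + (b *ᵥ y) ()) (fun j => c j () * x + (h *ᵥ y) j) := by
      intro x y
      rw [hM, blk_mulVec]
    -- first row
    have hrow : ∀ x y, a () () * x + (b *ᵥ y) () = x := by
      intro x y
      apply eq_of_sq_eq
      have h1 := form_transpose U (dForm m F) (vv x y) (vv x y)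
      rw [h0, dForm_vv, hact, dForm_vv] at h1
      exact h1
    have ha1 : a = 1 := by
      have h1 := hrow 1 0
      rw [Matrix.mulVec_zero] at h1
      simp only [mul_one, Pi.zero_apply, add_zero] at h1
      ext i j
      simpa using h1
    have hb0 : b = 0 := by
      ext i j
      have h1 := hrow 0 (Pi.single j 1)
      rw [Matrix.mulVec_single_one, mul_zero, zero_add] at h1
      exact h1
    rw [hM, ha1, hb0, dForm, Matrix.fromBlocks_transpose, Matrix.fromBlocks_multiply, Matrix.fromBlocks_multiply] at h0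
    simp only [Matrix.transpose_one, Matrix.transpose_zero, Matrix.mul_one, Matrix.mul_zero, Matrix.zero_mul, add_zero, zero_add, Matrix.one_mul] at h0
    obtain ⟨-, -, h3, h4⟩ := Matrix.fromBlocks_inj.mp h0
    have hdet := det_ne_of_sp h h4
    have hc0 : c = 0 := by
      -- `hᵀ H c = 0`
      have h5 : (Matrix.transpose h * HH) * c = 0 := h3
      have hd : (Matrix.transpose h * HH).det ≠ 0 := by
        rw [Matrix.det_mul, Matrix.det_transpose]
        exact mul_ne_zero hdet gramHyp_det_ne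
      have h6 := Matrix.nonsing_inv_mul_cancel_left _ c (isUnit_iff_ne_zero.mpr hd)
      rw [h5, Matrix.mul_zero] at h6
      exact h6.symm
    obtain ⟨b', hb'⟩ := exists_row h h4
    obtain ⟨g, hg, hgc⟩ := blocks_iso b' h h4 hb'
    refine ⟨⟨g, hg⟩, ?_⟩
    apply Units.ext
    change fromBlocks 1 0 0 _ = _
    rw [hgc, Matrix.toBlocks_fromBlocks₂₂, ← hU, hM, ha1, hb0, hc0]

lemma Qodd_smul (t : F) (v : Unit ⊕ (Fin m ⊕ Fin m) → F) :
    Cfsg.quadFormOdd m F (t • v) = t ^ 2 * Cfsg.quadFormOdd m F v := by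
  have h1 : t • v = vv (t * v (Sum.inl ())) (t • (v ∘ Sum.inr)) := by
    ext i
    rcases i with i | i
    · rfl
    · rfl
  have h2 : Cfsg.quadFormOdd m F v = v (Sum.inl ()) ^ 2 + Cfsg.quadFormPlus m F (v ∘ Sum.inr) := rfl
  rw [h1, quadOdd_vv, q_smul, h2]
  ring

/-- The projective conformal group of `x₀² + Σ xᵢ yᵢ` in characteristic two is the isometry group. -/
theorem pgo_equiv_iso [Fintype F] :
    Nonempty (↥(Cfsg.isometryGroup F (Cfsg.quadFormOdd m F)) ≃* Cfsg.PGO F (Cfsg.quadFormOdd m F)) := by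
  apply projQuot_equiv _ (Cfsg.isometryGroup F (Cfsg.quadFormOdd m F)).subtype
  · intro k
    refine ⟨1, fun v => ?_⟩
    rw [Units.val_one, one_mul]
    exact (mem_iso_odd _).mp k.2 v
  · intro k hk
    rw [Cfsg.Geo.mem_scalars_iff] at hk
    obtain ⟨c, hc⟩ := hk
    have h1 := (mem_iso_odd _).mp k.2 (vv 1 0)
    have h2 : ((k.1 : GL _ F) : Matrix (Unit ⊕ (Fin m ⊕ Fin m)) (Unit ⊕ (Fin m ⊕ Fin m)) F) = (c : F) • 1 := hc
    rw [h2, Matrix.smul_mulVec, Matrix.one_mulVec, Qodd_smul, quadOdd_vv, q_zero] at h1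
    have h3 : (c : F) = 1 := by
      apply eq_of_sq_eq
      linear_combination h1
    apply Subtype.ext
    apply Units.ext
    rw [h2, h3, one_smul]
    rfl
  · intro u hu
    obtain ⟨c, hc⟩ := hu
    obtain ⟨d, hd⟩ := exists_sqrt_unit c
    have hd0 : (d : F) ≠ 0 := d.ne_zero
    have h1 : u * scG d⁻¹ ∈ Cfsg.isometryGroup F (Cfsg.quadFormOdd m F) := by
      rw [mem_iso_odd]
      intro v
      rw [Units.val_mul, scG_coe, Matrix.mul_smul, Matrix.mul_one, Matrix.smul_mulVec, Qodd_smul, hc, hd, Units.val_inv_eq_inv_val]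
      field_simp
    refine ⟨⟨_, h1⟩, d, ?_⟩
    change _ = (d : F) • (((u * scG d⁻¹ : GL (Unit ⊕ (Fin m ⊕ Fin m)) F)) : Matrix (Unit ⊕ (Fin m ⊕ Fin m)) (Unit ⊕ (Fin m ⊕ Fin m)) F)
    rw [Units.val_mul, scG_coe, Matrix.mul_smul, Matrix.mul_one, smul_smul, Units.mul_inv, one_smul]

end two

/-- A non-degenerate alternating form lives in even dimension. -/
lemma even_of_alt {n : ℕ} (A : Matrix (Fin n) (Fin n) F) (hA : ∀ v, v ⬝ᵥ (A *ᵥ v) = 0) (hd : A.det ≠ 0) : Even n := by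
  obtain ⟨a, sA, -⟩ := Cfsg.Agent.Lib.SympBasis.exists_symp_basis (Matrix.toBilin' A) (by
    intro v
    rw [Matrix.toBilin'_apply']
    exact hA v) (by
    intro v hv
    apply Matrix.eq_zero_of_vecMul_eq_zero hd
    ext j
    have h3 := hv (ee j)
    rw [Matrix.toBilin'_apply', Matrix.dotProduct_mulVec, dotProduct_comm, single_one_dotProduct] at h3
    exact h3)
  have h1 := Module.finrank_eq_card_basis sA
  simp only [Fintype.card_prod, Fintype.card_fin, Module.finrank_fin_fun] at h1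
  exact ⟨a, by omega⟩

end Cfsg.Agent.Lib.AutPSL
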